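import Cfsg.Agent.H27.DefectZero
import Cfsg.Agent.H26.CharOrtho
import Cfsg.Agent.H25.CharIntegral
import Mathlib.RingTheory.Finiteness.Nakayama

/-!
# The integral form of the algebra of `U`-biinvariant operators

For a representation of a finite group and a subgroup `U`, the operators `[U : U ∩ gUg⁻¹] P g P`,
`P` the projection to the `U`-fixed vectors, span an order.
-/

set_option autoImplicit false

namespace Cfsg.Agent.H68.Hecke

open scoped ComplexConjugate Pointwise
open Polynomial (aeval)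

variable {G : Type*} [Group G] [Fintype G] (U : Subgroup G) {r : ℕ}
  (ρ : Representation ℂ G (Fin r → ℂ))

local notation "E" => Module.End ℂ (Fin r → ℂ)

/-- The projection to the fixed vectors of `U`. -/
noncomputable def avg : Module.End ℂ (Fin r → ℂ) :=
  letI : Fintype U := Fintype.ofFinite U
  (Nat.card U : ℂ)⁻¹ • ∑ u : U, ρ (u : G)

/-- The compressed operator of a group element. -/
noncomputable def ee (g : G) : Module.End ℂ (Fin r → ℂ) := avg U ρ * ρ g * avg U ρ

/-- The orbit of a coset. -/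
noncomputable def orb (g : G) : ℕ := Nat.card (MulAction.orbit U (QuotientGroup.mk g : G ⧸ U))

/-- The standard generators of the order. -/
noncomputable def TT (g : G) : Module.End ℂ (Fin r → ℂ) := (orb U g : ℂ) • ee U ρ g

variable {U ρ}

theorem rho_mul_avg {u : G} (hu : u ∈ U) : ρ u * avg U ρ = avg U ρ := by
  classical
  letI : Fintype U := Fintype.ofFinite U
  rw [avg, mul_smul_comm, Finset.mul_sum]
  congr 1
  exact Fintype.sum_equiv (Equiv.mulLeft ⟨u, hu⟩) _ _ fun v => by simp [← map_mul]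

theorem avg_mul_rho {u : G} (hu : u ∈ U) : avg U ρ * ρ u = avg U ρ := by
  classical
  letI : Fintype U := Fintype.ofFinite U
  rw [avg, smul_mul_assoc, Finset.sum_mul]
  congr 1
  exact Fintype.sum_equiv (Equiv.mulRight ⟨u, hu⟩) _ _ fun v => by simp [← map_mul]

theorem avg_mul_avg : avg U ρ * avg U ρ = avg U ρ := by
  classical
  letI : Fintype U := Fintype.ofFinite U
  conv_lhs => lhs; rw [avg]
  rw [smul_mul_assoc, Finset.sum_mul, Finset.sum_congr rfl fun u _ => rho_mul_avg u.2,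
    Finset.sum_const, Finset.card_univ, ← Nat.cast_smul_eq_nsmul ℂ, smul_smul, Nat.card_eq_fintype_card,
    inv_mul_cancel₀ (Nat.cast_ne_zero.2 Fintype.card_ne_zero), one_smul]

theorem avg_mul_ee (g : G) : avg U ρ * ee U ρ g = ee U ρ g := by
  rw [ee, ← mul_assoc, ← mul_assoc, avg_mul_avg]

theorem ee_mul_avg (g : G) : ee U ρ g * avg U ρ = ee U ρ g := by
  rw [ee, mul_assoc, avg_mul_avg]

theorem ee_one : ee U ρ 1 = avg U ρ := by rw [ee, map_one, mul_one, avg_mul_avg]

theorem ee_mul_mem {g u : G} (hu : u ∈ U) : ee U ρ (g * u) = ee U ρ g := by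
  rw [ee, ee, map_mul, mul_assoc _ _ (avg U ρ), mul_assoc (ρ g), rho_mul_avg hu, mul_assoc]

theorem ee_mem_mul {g u : G} (hu : u ∈ U) : ee U ρ (u * g) = ee U ρ g := by
  rw [ee, ee, map_mul, ← mul_assoc, avg_mul_rho hu]

theorem rho_avg_comm {h : G} (hh : h ∈ Subgroup.normalizer (U : Set G)) :
    ρ h * avg U ρ = avg U ρ * ρ h := by
  classical
  letI : Fintype U := Fintype.ofFinite U
  rw [avg, mul_smul_comm, smul_mul_assoc, Finset.mul_sum, Finset.sum_mul]
  congr 1
  refine Fintype.sum_equiv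
    { toFun := fun u : U => (⟨h * (u : G) * h⁻¹, (Subgroup.mem_normalizer_iff.1 hh _).1 u.2⟩ : U)
      invFun := fun u : U => (⟨h⁻¹ * (u : G) * h, (Subgroup.mem_normalizer_iff.1 hh _).2
        (by simpa [mul_assoc] using u.2)⟩ : U)
      left_inv := fun u => Subtype.ext (by simp [mul_assoc])
      right_inv := fun u => Subtype.ext (by simp [mul_assoc]) } _ _ fun u => ?_
  simp [← map_mul, mul_assoc]

theorem ee_mul_normalizer {g h : G} (hh : h ∈ Subgroup.normalizer (U : Set G)) :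
    ee U ρ g * ee U ρ h = ee U ρ (g * h) := by
  rw [ee, ee, ee, ← rho_avg_comm hh, map_mul]
  simp only [mul_assoc, avg_mul_avg]
  rw [← mul_assoc (avg U ρ) (ρ h), ← rho_avg_comm hh, mul_assoc (ρ h), avg_mul_avg]

theorem normalizer_mul_ee {g h : G} (hh : h ∈ Subgroup.normalizer (U : Set G)) :
    ee U ρ h * ee U ρ g = ee U ρ (h * g) := by
  rw [ee, ee, ee, map_mul, ← rho_avg_comm hh]
  simp only [← mul_assoc]
  rw [mul_assoc (ρ h) (avg U ρ) (avg U ρ), avg_mul_avg, mul_assoc (ρ h) (avg U ρ) (avg U ρ), avg_mul_avg]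
  simp only [rho_avg_comm hh]

theorem orb_pos (g : G) : 0 < orb U g :=
  have : Nonempty (MulAction.orbit U (QuotientGroup.mk g : G ⧸ U)) := ⟨⟨_, MulAction.mem_orbit_self _⟩⟩
  Nat.card_pos

theorem orb_mul_stab (g : G) :
    orb U g * Nat.card (MulAction.stabilizer U (QuotientGroup.mk g : G ⧸ U)) = Nat.card U := by
  rw [orb, ← Nat.card_prod, Nat.card_congr (MulAction.orbitProdStabilizerEquivGroup U _)]

theorem mem_stab {g : G} (u : U) :
    u ∈ MulAction.stabilizer U (QuotientGroup.mk g : G ⧸ U) ↔ g⁻¹ * (u : G) * g ∈ U := by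
  rw [MulAction.mem_stabilizer_iff]
  change (QuotientGroup.mk ((u : G) * g) : G ⧸ U) = _ ↔ _
  rw [eq_comm, QuotientGroup.eq, mul_assoc]

/-- The double coset of an element. -/
noncomputable def dc (U : Subgroup G) (g : G) : MulAction.orbitRel.Quotient U (G ⧸ U) :=
  Quotient.mk'' (QuotientGroup.mk g)

theorem dc_eq_iff {g h : G} : dc U g = dc U h ↔ ∃ u ∈ U, ∃ v ∈ U, g = u * h * v := by
  rw [dc, dc, Quotient.eq'', MulAction.orbitRel_apply]
  constructor
  · rintro ⟨⟨u, hu⟩, he⟩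
    change (QuotientGroup.mk (u * h) : G ⧸ U) = QuotientGroup.mk g at he
    rw [QuotientGroup.eq] at he
    exact ⟨u, hu, (u * h)⁻¹ * g, he, by group⟩
  · rintro ⟨u, hu, v, hv, rfl⟩
    refine ⟨⟨u, hu⟩, ?_⟩
    change (QuotientGroup.mk (u * h) : G ⧸ U) = _
    rw [QuotientGroup.eq]
    simpa [mul_assoc] using hv

theorem dc_mul_right {g v : G} (hv : v ∈ U) : dc U (g * v) = dc U g :=
  dc_eq_iff.2 ⟨1, one_mem _, v, hv, by simp⟩

theorem dc_mul_left {g u : G} (hu : u ∈ U) : dc U (u * g) = dc U g :=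
  dc_eq_iff.2 ⟨u, hu, 1, one_mem _, by simp⟩

theorem ee_congr {g h : G} (e : dc U g = dc U h) : ee U ρ g = ee U ρ h := by
  obtain ⟨u, hu, v, hv, rfl⟩ := dc_eq_iff.1 e
  rw [ee_mul_mem hv, ee_mem_mul hu]

theorem card_dc (d : G) [DecidablePred fun g : G => dc U g = dc U d] :
    (Finset.univ.filter fun g : G => dc U g = dc U d).card = Nat.card U * orb U d := by
  classical
  rw [← Fintype.card_subtype, ← Nat.card_eq_fintype_card, orb,
    ← Nat.card_prod, ← Nat.card_congr (QuotientGroup.preimageMkEquivSubgroupProdSet U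
      (MulAction.orbit U (QuotientGroup.mk d : G ⧸ U)))]
  refine Nat.card_congr (Equiv.subtypeEquivRight fun g => ?_)
  rw [dc, dc, Quotient.eq'', MulAction.orbitRel_apply]
  rfl

theorem sum_eq_of_biinvariant (f : G → ℂ) (hf : ∀ u ∈ U, ∀ v ∈ U, ∀ g, f (u * g * v) = f g) :
    ∑ g : G, f g • ρ g = ∑ g : G, f g • ee U ρ g := by
  classical
  letI : Fintype U := Fintype.ofFinite U
  have hl : avg U ρ * (∑ g : G, f g • ρ g) = ∑ g : G, f g • ρ g := by
    rw [avg, smul_mul_assoc, Finset.sum_mul]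
    have hu : ∀ u : U, ρ (u : G) * (∑ g : G, f g • ρ g) = ∑ g : G, f g • ρ g := fun u => by
      rw [Finset.mul_sum]
      refine Fintype.sum_equiv (Equiv.mulLeft (u : G)) _ _ fun g => ?_
      have := hf u u.2 1 (one_mem _) g
      rw [mul_one] at this
      simp [this, map_mul]
    rw [Fintype.sum_congr _ _ hu, Finset.sum_const, Finset.card_univ, ← Nat.cast_smul_eq_nsmul ℂ,
      smul_smul, Nat.card_eq_fintype_card, inv_mul_cancel₀ (Nat.cast_ne_zero.2 Fintype.card_ne_zero),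
      one_smul]
  have hr : (∑ g : G, f g • ρ g) * avg U ρ = ∑ g : G, f g • ρ g := by
    rw [avg, mul_smul_comm, Finset.mul_sum]
    have hu : ∀ u : U, (∑ g : G, f g • ρ g) * ρ (u : G) = ∑ g : G, f g • ρ g := fun u => by
      rw [Finset.sum_mul]
      refine Fintype.sum_equiv (Equiv.mulRight (u : G)) _ _ fun g => ?_
      have := hf 1 (one_mem _) u u.2 g
      rw [one_mul] at this
      simp [this, map_mul]
    rw [Fintype.sum_congr _ _ hu, Finset.sum_const, Finset.card_univ, ← Nat.cast_smul_eq_nsmul ℂ,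
      smul_smul, Nat.card_eq_fintype_card, inv_mul_cancel₀ (Nat.cast_ne_zero.2 Fintype.card_ne_zero),
      one_smul]
  conv_lhs => rw [← hr, ← hl, Finset.mul_sum, Finset.sum_mul]
  simp only [ee, mul_smul_comm, smul_mul_assoc]

variable (U ρ) in
/-- The span of the generators over a ring of coefficients. -/
noncomputable def order (O : Subalgebra ℤ ℂ) : Submodule O (Module.End ℂ (Fin r → ℂ)) :=
  Submodule.span O (Set.range (TT U ρ))

theorem TT_mem (O : Subalgebra ℤ ℂ) (g : G) : TT U ρ g ∈ order U ρ O :=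
  Submodule.subset_span ⟨g, rfl⟩

theorem smul_mem_order (O : Subalgebra ℤ ℂ) {c : ℂ} (hc : c ∈ O) {A : Module.End ℂ (Fin r → ℂ)}
    (hA : A ∈ order U ρ O) : c • A ∈ order U ρ O :=
  Submodule.smul_mem _ (⟨c, hc⟩ : O) hA

/-- An `O`-valued biinvariant function gives an element of the order. -/
theorem sum_mem_order (O : Subalgebra ℤ ℂ) (f : G → ℂ) (hfO : ∀ g, f g ∈ O)
    (hf : ∀ u ∈ U, ∀ v ∈ U, ∀ g, f (u * g * v) = f g) :
    (Nat.card U : ℂ)⁻¹ • ∑ g : G, f g • ee U ρ g ∈ order U ρ O := by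
  classical
  rw [← Finset.sum_fiberwise_of_maps_to (g := dc U) (t := Finset.univ.image (dc U))
    (fun g _ => Finset.mem_image_of_mem _ (Finset.mem_univ g)), Finset.smul_sum]
  refine Submodule.sum_mem _ fun c hc => ?_
  obtain ⟨d, -, rfl⟩ := Finset.mem_image.1 hc
  have h : ∀ g ∈ Finset.univ.filter (fun g : G => dc U g = dc U d),
      f g • ee U ρ g = f d • ee U ρ d := by
    intro g hg
    obtain ⟨u, hu, v, hv, rfl⟩ := dc_eq_iff.1 (Finset.mem_filter.1 hg).2
    rw [hf u hu v hv, ee_mul_mem hv, ee_mem_mul hu]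
  rw [Finset.sum_congr rfl h, Finset.sum_const, card_dc, ← Nat.cast_smul_eq_nsmul ℂ, smul_smul,
    Nat.cast_mul, ← mul_assoc, inv_mul_cancel₀ (Nat.cast_ne_zero.2 Nat.card_pos.ne'), one_mul,
    smul_comm]
  exact smul_mem_order O (hfO d) (TT_mem O d)

theorem TT_eq_sum (g : G) [DecidablePred fun x : G => dc U x = dc U g] :
    TT U ρ g = (Nat.card U : ℂ)⁻¹ • ∑ x : G, (if dc U x = dc U g then (1 : ℂ) else 0) • ρ x := by
  classical
  have hf : ∀ u ∈ U, ∀ v ∈ U, ∀ x, (if dc U (u * x * v) = dc U g then (1 : ℂ) else 0) =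
      if dc U x = dc U g then (1 : ℂ) else 0 := fun u hu v hv x => by
    simp only [dc_mul_right hv, dc_mul_left hu]
  rw [sum_eq_of_biinvariant _ hf]
  simp only [ite_smul, one_smul, zero_smul]
  rw [← Finset.sum_filter, Finset.sum_congr rfl fun x hx => ee_congr (Finset.mem_filter.1 hx).2,
    Finset.sum_const, card_dc, ← Nat.cast_smul_eq_nsmul ℂ, smul_smul, Nat.cast_mul, ← mul_assoc,
    inv_mul_cancel₀ (Nat.cast_ne_zero.2 Nat.card_pos.ne'), one_mul]
  rfl

theorem TT_mul_TT_mem (O : Subalgebra ℤ ℂ) (g h : G) : TT U ρ g * TT U ρ h ∈ order U ρ O := by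
  classical
  letI : Fintype U := Fintype.ofFinite U
  rw [TT_eq_sum g, TT_eq_sum h, smul_mul_assoc, mul_smul_comm]
  let F : G → ℂ := fun x => (Nat.card U : ℂ)⁻¹ *
    ((Finset.univ.filter fun a : G => dc U a = dc U g ∧ dc U (a⁻¹ * x) = dc U h).card : ℂ)
  have hprod : (∑ a : G, (if dc U a = dc U g then (1 : ℂ) else 0) • ρ a) *
      (∑ b : G, (if dc U b = dc U h then (1 : ℂ) else 0) • ρ b) =
      (Nat.card U : ℂ) • ∑ x : G, F x • ρ x := by
    rw [Finset.sum_mul]
    simp only [Finset.mul_sum]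
    rw [Finset.sum_congr rfl fun a _ => (Fintype.sum_equiv (Equiv.mulLeft a)
      (fun b => ((if dc U a = dc U g then (1 : ℂ) else 0) • ρ a) *
        ((if dc U b = dc U h then (1 : ℂ) else 0) • ρ b))
      (fun x => (if dc U a = dc U g ∧ dc U (a⁻¹ * x) = dc U h then (1 : ℂ) else 0) • ρ x)
      fun b => by
        simp only [Equiv.coe_mulLeft, inv_mul_cancel_left]
        by_cases h1 : dc U a = dc U g <;> by_cases h2 : dc U b = dc U h <;> simp [h1, h2, map_mul]),
      Finset.sum_comm, Finset.smul_sum]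
    refine Finset.sum_congr rfl fun x _ => ?_
    rw [← Finset.sum_smul, Finset.sum_boole, smul_smul, ← mul_assoc,
      mul_inv_cancel₀ (Nat.cast_ne_zero.2 Nat.card_pos.ne'), one_mul]
  rw [hprod, smul_smul (Nat.card U : ℂ)⁻¹ (Nat.card U : ℂ),
    inv_mul_cancel₀ (Nat.cast_ne_zero.2 Nat.card_pos.ne'), one_smul]
  have hF : ∀ u ∈ U, ∀ v ∈ U, ∀ x, F (u * x * v) = F x := by
    intro u hu v hv x
    simp only [F]
    congr 2
    refine Finset.card_bij' (fun a _ => u⁻¹ * a) (fun a _ => u * a) (fun a ha => ?_) (fun a ha => ?_)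
      (fun a _ => mul_inv_cancel_left u a) (fun a _ => inv_mul_cancel_left u a)
    · rw [Finset.mem_filter] at ha ⊢
      refine ⟨Finset.mem_univ _, by rw [dc_mul_left (inv_mem hu), ha.2.1], ?_⟩
      rw [← ha.2.2, show a⁻¹ * (u * x * v) = (u⁻¹ * a)⁻¹ * x * v by group, dc_mul_right hv]
    · rw [Finset.mem_filter] at ha ⊢
      refine ⟨Finset.mem_univ _, by rw [dc_mul_left hu, ha.2.1], ?_⟩
      rw [show (u * a)⁻¹ * (u * x * v) = a⁻¹ * x * v by group, dc_mul_right hv, ha.2.2]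
  rw [sum_eq_of_biinvariant F hF]
  refine sum_mem_order O F (fun x => ?_) hF
  obtain ⟨k, hk⟩ : Nat.card U ∣
      (Finset.univ.filter fun a : G => dc U a = dc U g ∧ dc U (a⁻¹ * x) = dc U h).card := by
    have : (Finset.univ.filter fun a : G => dc U a = dc U g ∧ dc U (a⁻¹ * x) = dc U h).card =
        Nat.card (QuotientGroup.mk (s := U) ⁻¹' (QuotientGroup.mk (s := U) ''
          {a : G | dc U a = dc U g ∧ dc U (a⁻¹ * x) = dc U h}) : Set G) := by
      rw [← Fintype.card_subtype, ← Nat.card_eq_fintype_card]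
      refine Nat.card_congr (Equiv.subtypeEquivRight fun a => ?_)
      refine ⟨fun ha => ⟨a, ha, rfl⟩, ?_⟩
      rintro ⟨b, hb, hba⟩
      have hba' := QuotientGroup.eq.1 hba
      rw [show a = b * (b⁻¹ * a) by group]
      refine ⟨by rw [dc_mul_right hba', hb.1], ?_⟩
      rw [show (b * (b⁻¹ * a))⁻¹ * x = (b⁻¹ * a)⁻¹ * (b⁻¹ * x) by group,
        dc_mul_left (inv_mem hba'), hb.2]
    rw [this, Nat.card_congr (QuotientGroup.preimageMkEquivSubgroupProdSet U _), Nat.card_prod]
    exact dvd_mul_right _ _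
  simp only [F, hk, Nat.cast_mul, ← mul_assoc,
    inv_mul_cancel₀ (Nat.cast_ne_zero.2 Nat.card_pos.ne' : (Nat.card U : ℂ) ≠ 0), one_mul]
  exact natCast_mem O k

theorem order_mul_mem (O : Subalgebra ℤ ℂ) {A B : Module.End ℂ (Fin r → ℂ)}
    (hA : A ∈ order U ρ O) (hB : B ∈ order U ρ O) : A * B ∈ order U ρ O := by
  induction hA using Submodule.span_induction with
  | mem a ha =>
    obtain ⟨g, rfl⟩ := ha
    induction hB using Submodule.span_induction with
    | mem b hb => obtain ⟨h, rfl⟩ := hb; exact TT_mul_TT_mem O g h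
    | zero => rw [mul_zero]; exact zero_mem _
    | add x y _ _ hx hy => rw [mul_add]; exact add_mem hx hy
    | smul c x _ hx => rw [mul_smul_comm]; exact Submodule.smul_mem _ _ hx
  | zero => rw [zero_mul]; exact zero_mem _
  | add x y _ _ hx hy => rw [add_mul]; exact add_mem hx hy
  | smul c x _ hx => rw [smul_mul_assoc]; exact Submodule.smul_mem _ _ hx

instance order_finite (O : Subalgebra ℤ ℂ) : Module.Finite O (order U ρ O) :=
  Module.Finite.span_of_finite O (Set.finite_range _)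

theorem order_fg (O : Subalgebra ℤ ℂ) [Module.Finite ℤ O] :
    ((order U ρ O).restrictScalars ℤ).FG := by
  have : Module.Finite ℤ (order U ρ O) := Module.Finite.trans O _
  exact Module.Finite.iff_fg.1 (show Module.Finite ℤ ((order U ρ O).restrictScalars ℤ) from this)

/-- The Nakayama trick. -/
theorem eq_zero_of_smul_eq (O : Subalgebra ℤ ℂ) [Module.Finite ℤ O] {p a : ℕ} (hp : 1 < p)
    (ha : Nat.Coprime a p) {z Y : Module.End ℂ (Fin r → ℂ)} (hz : z ∈ order U ρ O)
    (hY : Y ∈ order U ρ O) (h : a • z = p • (z * Y)) : z = 0 := by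
  set R := (order U ρ O).restrictScalars ℤ with hR
  set N : Submodule ℤ (Module.End ℂ (Fin r → ℂ)) :=
    Submodule.span ℤ {z} ⊔ R.map (LinearMap.mulLeft ℤ z) with hN
  have hfg : N.FG := (Submodule.fg_span_singleton z).sup ((order_fg O).map _)
  have hzN : z ∈ N := Submodule.mem_sup_left (Submodule.mem_span_singleton_self z)
  have hstep : ∀ x ∈ N, (a : ℤ) • x ∈ (Ideal.span {(p : ℤ)}) • N := by
    intro x hx
    obtain ⟨y, hy, w, hw, rfl⟩ := Submodule.mem_sup.1 hx
    obtain ⟨c, rfl⟩ := Submodule.mem_span_singleton.1 hy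
    obtain ⟨Y', hY', rfl⟩ := hw
    rw [smul_add, smul_comm]
    have key : ∀ W : Module.End ℂ (Fin r → ℂ), W ∈ R →
        (p : ℤ) • (z * W) ∈ Ideal.span {(p : ℤ)} • N := fun W hW =>
      Submodule.smul_mem_smul (Ideal.mem_span_singleton_self _)
        (Submodule.mem_sup_right ⟨W, hW, rfl⟩)
    refine add_mem (Submodule.smul_mem _ c ?_) ?_
    · rw [natCast_zsmul, h, ← natCast_zsmul]; exact key Y hY
    · rw [LinearMap.mulLeft_apply, natCast_zsmul, ← smul_mul_assoc, h, smul_mul_assoc, mul_assoc,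
        ← natCast_zsmul]
      exact key _ (order_mul_mem O hY hY')
  have hle : N ≤ (Ideal.span {(p : ℤ)}) • N := by
    intro x hx
    obtain ⟨u, v, huv⟩ := Int.isCoprime_iff_nat_coprime.2 (show Nat.Coprime (a : ℤ).natAbs (p : ℤ).natAbs
      from by simpa using ha)
    rw [← one_smul ℤ x, ← huv, add_smul, mul_smul, mul_smul]
    refine add_mem (Submodule.smul_mem _ u (hstep x hx)) ?_
    rw [smul_comm]
    exact Submodule.smul_mem_smul (Ideal.mem_span_singleton_self _) (Submodule.smul_mem _ v hx)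
  obtain ⟨c, hc, hc'⟩ := Submodule.exists_sub_one_mem_and_smul_eq_zero_of_fg_of_le_smul _ N hfg hle
  have h0 := hc' z hzN
  have hc0 : c ≠ 0 := by
    rintro rfl
    rw [Ideal.mem_span_singleton] at hc
    have h1 : (p : ℤ) ∣ 1 := by simpa using hc
    have := Int.eq_one_of_dvd_one (Int.natCast_nonneg p) h1
    omega
  rw [← Int.cast_smul_eq_zsmul ℂ] at h0
  exact (smul_eq_zero.1 h0).resolve_left (Int.cast_ne_zero.2 hc0)

/-- Elements of the integral order are integral over `ℤ`. -/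
theorem isIntegral_TT (g : G) : IsIntegral ℤ (TT U ρ g) := by
  let O : Subalgebra ℤ ℂ := ⊥
  have : Module.Finite ℤ O := Module.Finite.iff_fg.2 Subalgebra.fg_bot_toSubmodule
  set R := (order U ρ O).restrictScalars ℤ
  let S : Submodule ℤ (Module.End ℂ (Fin r → ℂ)) := Submodule.span ℤ {1} ⊔ R
  have hone : (1 : Module.End ℂ (Fin r → ℂ)) ∈ S :=
    Submodule.mem_sup_left (Submodule.mem_span_singleton_self _)
  have hmul : ∀ x y, x ∈ S → y ∈ S → x * y ∈ S := by
    intro x y hx hy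
    obtain ⟨a, ha, A, hA, rfl⟩ := Submodule.mem_sup.1 hx
    obtain ⟨b, hb, B, hB, rfl⟩ := Submodule.mem_sup.1 hy
    obtain ⟨m, rfl⟩ := Submodule.mem_span_singleton.1 ha
    obtain ⟨n, rfl⟩ := Submodule.mem_span_singleton.1 hb
    rw [add_mul, mul_add, mul_add]
    simp only [smul_mul_assoc, mul_smul_comm, one_mul, mul_one]
    exact add_mem (add_mem (Submodule.smul_mem _ _ (Submodule.smul_mem _ _ hone))
      (Submodule.smul_mem _ _ (Submodule.mem_sup_right hB)))
      (add_mem (Submodule.smul_mem _ _ (Submodule.mem_sup_right hA))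
      (Submodule.mem_sup_right (order_mul_mem O hA hB)))
  refine IsIntegral.of_mem_of_fg (S.toSubalgebra hone hmul) ?_ _
    (show TT U ρ g ∈ S from Submodule.mem_sup_right (TT_mem O g))
  show (S.toSubalgebra hone hmul).toSubmodule.FG
  rw [Submodule.toSubalgebra_toSubmodule]
  exact (Submodule.fg_span_singleton _).sup (order_fg O)

theorem isIntegral_trace {A : Module.End ℂ (Fin r → ℂ)} (hA : IsIntegral ℤ A) :
    IsIntegral ℤ (LinearMap.trace ℂ (Fin r → ℂ) A) := by
  rcases Nat.eq_zero_or_pos r with rfl | hr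
  · rw [Subsingleton.elim A 0, map_zero]; exact isIntegral_zero
  have : Nonempty (Fin r) := ⟨⟨0, hr⟩⟩
  obtain ⟨f, hf, hf0⟩ := hA
  rw [LinearMap.trace_eq_matrix_trace ℂ (Pi.basisFun ℂ (Fin r)), Matrix.trace_eq_sum_roots_charpoly]
  set M := LinearMap.toMatrix (Pi.basisFun ℂ (Fin r)) (Pi.basisFun ℂ (Fin r)) A
  have hM : aeval M f = 0 := by
    have h1 : aeval A f = 0 := hf0
    have h2 := Polynomial.aeval_algHom_apply
      ((LinearMap.toMatrixAlgEquiv (Pi.basisFun ℂ (Fin r))).toAlgHom.restrictScalars ℤ) A f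
    rw [h1, map_zero] at h2
    exact h2
  refine IsIntegral.multiset_sum fun x hx => ⟨f, hf, ?_⟩
  have hx' := Matrix.mem_spectrum_of_isRoot_charpoly (Polynomial.isRoot_of_mem_roots hx)
  have h3 := spectrum.subset_polynomial_aeval M (f.map (algebraMap ℤ ℂ)) ⟨x, hx', rfl⟩
  rw [Polynomial.aeval_map_algebraMap, hM, spectrum.zero_eq, Set.mem_singleton_iff] at h3
  simp only [Polynomial.eval_map] at h3
  exact h3

/-- Schur's lemma in the form used here. -/
theorem exists_scalar [ρ.IsIrreducible] (A : Module.End ℂ (Fin r → ℂ))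
    (hA : ∀ g, A * ρ g = ρ g * A) : ∃ c : ℂ, A = c • 1 := by
  let T : Representation.IntertwiningMap ρ ρ := ⟨A, fun g => hA g⟩
  obtain ⟨c, hc⟩ := Representation.IsIrreducible.algebraMap_intertwiningMap_bijective_of_isAlgClosed
    (ρ := ρ) |>.2 T
  refine ⟨c, ?_⟩
  have := congrArg Representation.IntertwiningMap.toLinearMap hc
  simpa [T, Algebra.algebraMap_eq_smul_one, Representation.IntertwiningMap.toLinearMap_smul]
    using this.symm.trans (by ext v; simp)

theorem avg_trace [Fintype U] :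
    LinearMap.trace ℂ (Fin r → ℂ) (avg U ρ) = (Nat.card U : ℂ)⁻¹ * ∑ u : U, ρ.character (u : G) := by
  classical
  simp only [avg, map_smul, map_sum, smul_eq_mul, Representation.character]
  congr 1
  convert rfl

theorem sum_char_inv [ρ.IsIrreducible] :
    ∑ g : G, ρ.character g⁻¹ • ρ g = ((Nat.card G : ℂ) / (r : ℂ)) • 1 := by
  classical
  have hirr : Cfsg.IsIrrCharacter G ρ.character := ⟨r, ρ, inferInstance, rfl⟩
  have hconj : ∀ g, ρ.character g⁻¹ = conj (ρ.character g) := fun g => H25.char_inv ρ g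
  simp only [hconj]
  obtain ⟨c, hc⟩ := exists_scalar (ρ := ρ) (∑ g : G, conj (ρ.character g) • ρ g) fun x => LinearMap.ext fun v =>
    H26.avgOp_comm ρ ρ.character (fun g h => H26.irr_conj ⟨_, hirr⟩ g h) x v
  rw [hc]
  congr 1
  have hr : (r : ℂ) ≠ 0 := by
    have := H25.finrank_pos_of_isIrreducible ρ
    rw [Module.finrank_fin_fun] at this
    exact Nat.cast_ne_zero.2 this.ne'
  have ht := congrArg (LinearMap.trace ℂ (Fin r → ℂ)) hc
  simp only [map_sum, map_smul, smul_eq_mul, LinearMap.trace_one, Module.finrank_fin_fun] at ht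
  have h1 : ∑ g : G, conj (ρ.character g) * LinearMap.trace ℂ (Fin r → ℂ) (ρ g) = (Nat.card G : ℂ) := by
    have h2 := H57.irr_inner_self hirr
    rw [Cfsg.classInner, inv_mul_eq_iff_eq_mul₀ (Nat.cast_ne_zero.2 Nat.card_pos.ne'), mul_one] at h2
    rw [← h2]
    exact Fintype.sum_congr _ _ fun g => mul_comm _ _
  rw [h1] at ht
  rw [eq_div_iff hr, ← ht]

theorem trace_ee (g : G) :
    LinearMap.trace ℂ (Fin r → ℂ) (ee U ρ g) =
      LinearMap.trace ℂ (Fin r → ℂ) (avg U ρ * ρ g) := by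
  rw [ee, LinearMap.trace_mul_comm, ← mul_assoc, avg_mul_avg]

/-- The key congruence: up to an element divisible by `p`, a multiple of the projection is a
combination of the generators attached to the big cell. -/
theorem exists_congruence [ρ.IsIrreducible] {p M m : ℕ} (hp : p.Prime) (hU : IsPGroup p U)
    (hM : Nat.card G = Nat.card U * M) (hm : r = Nat.card U * m) (Q : G → Prop)
    (hQ : ∀ u ∈ U, ∀ v ∈ U, ∀ g, Q (u * g * v) ↔ Q g)
    (hst : ∀ g, ¬ Q g → MulAction.stabilizer U (QuotientGroup.mk g⁻¹ : G ⧸ U) ≠ ⊥) :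
    ∃ (O : Subalgebra ℤ ℂ) (_ : Module.Finite ℤ O), ∃ X Y,
      X ∈ Submodule.span O (TT U ρ '' {g | Q g}) ∧ Y ∈ order U ρ O ∧
        M • avg U ρ = X + p • Y := by
  classical
  letI : Fintype U := Fintype.ofFinite U
  set s : Set ℂ := Set.range fun g => LinearMap.trace ℂ (Fin r → ℂ) (TT U ρ g)
  have hs : ∀ x ∈ s, IsIntegral ℤ x := by
    rintro x ⟨g, rfl⟩; exact isIntegral_trace (isIntegral_TT g)
  let O : Subalgebra ℤ ℂ := Algebra.adjoin ℤ s
  have hO : Module.Finite ℤ O :=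
    Module.Finite.iff_fg.2 (fg_adjoin_of_finite (Set.finite_range _) hs)
  refine ⟨O, hO, ?_⟩
  set σ : G → ℂ := fun g => (Nat.card U : ℂ) * LinearMap.trace ℂ (Fin r → ℂ) (ee U ρ g⁻¹) with hσ
  set st : G → ℕ := fun g => Nat.card (MulAction.stabilizer U (QuotientGroup.mk g⁻¹ : G ⧸ U)) with hstd
  have hσT : ∀ g, σ g = (st g : ℂ) * LinearMap.trace ℂ (Fin r → ℂ) (TT U ρ g⁻¹) := by
    intro g
    simp only [hσ, hstd, TT, map_smul, smul_eq_mul, ← mul_assoc]
    congr 1
    rw [← Nat.cast_mul, mul_comm (Nat.card _), orb_mul_stab]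
  have hσb : ∀ u ∈ U, ∀ v ∈ U, ∀ g, σ (u * g * v) = σ g := by
    intro u hu v hv g
    simp only [hσ]
    rw [show (u * g * v)⁻¹ = v⁻¹ * g⁻¹ * u⁻¹ by group, ee_mul_mem (inv_mem hu), ee_mem_mul (inv_mem hv)]
  have hident : (m : ℂ) • ((Nat.card U : ℂ)⁻¹ • ∑ g : G, σ g • ee U ρ g) = (M : ℂ) • avg U ρ := by
    have h1 : ∀ u : U, ∑ g : G, ρ.character (g⁻¹ * (u : G)) • ee U ρ g =
        ∑ g : G, ρ.character g⁻¹ • ee U ρ g := fun u => by
      refine Fintype.sum_equiv (Equiv.mulLeft (u : G)⁻¹) _ _ fun g => ?_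
      simp [ee_mem_mul (inv_mem u.2)]
    have h2 : ∀ g, σ g = ∑ u : U, ρ.character (g⁻¹ * (u : G)) := by
      intro g
      simp only [hσ]
      rw [trace_ee, avg, smul_mul_assoc, map_smul, smul_eq_mul, ← mul_assoc,
        mul_inv_cancel₀ (Nat.cast_ne_zero.2 Nat.card_pos.ne'), one_mul, Finset.sum_mul, map_sum]
      refine Fintype.sum_congr _ _ fun u => ?_
      rw [← map_mul]
      show ρ.character ((u : G) * g⁻¹) = _
      rw [show (u : G) * g⁻¹ = (u : G) * (g⁻¹ * u) * (u : G)⁻¹ by group]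
      exact H26.irr_conj ⟨_, ⟨r, ρ, inferInstance, rfl⟩⟩ _ _
    have h3 : ∑ g : G, ρ.character g⁻¹ • ee U ρ g = ((Nat.card G : ℂ) / (r : ℂ)) • avg U ρ := by
      have h4 := congrArg (fun A => avg U ρ * A * avg U ρ) (sum_char_inv (ρ := ρ))
      simp only [Finset.mul_sum, Finset.sum_mul, mul_smul_comm, smul_mul_assoc, mul_one, avg_mul_avg] at h4
      exact h4
    simp only [h2, Finset.sum_smul]
    rw [Finset.sum_comm, Fintype.sum_congr _ _ h1, Finset.sum_const, Finset.card_univ,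
      ← Nat.cast_smul_eq_nsmul ℂ, h3, smul_smul, smul_smul, smul_smul, hM]
    congr 1
    rw [show (r : ℂ) = (Nat.card U : ℂ) * (m : ℂ) by exact_mod_cast hm]
    have hm0 : (m : ℂ) ≠ 0 := by
      intro h0
      have := H25.finrank_pos_of_isIrreducible ρ
      rw [Module.finrank_fin_fun, hm, Nat.cast_eq_zero.1 h0, mul_zero] at this
      exact lt_irrefl 0 this
    have hU0 : (Nat.card U : ℂ) ≠ 0 := Nat.cast_ne_zero.2 Nat.card_pos.ne'
    rw [← Nat.card_eq_fintype_card]
    push_cast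
    field_simp
  set f₁ : G → ℂ := fun g => if Q g then σ g else 0 with hf₁
  set f₂ : G → ℂ := fun g => if Q g then 0 else σ g / (p : ℂ) with hf₂
  have hσO : ∀ g, σ g ∈ O := fun g => by
    rw [hσT]; exact mul_mem (natCast_mem O _) (Algebra.subset_adjoin ⟨_, rfl⟩)
  have hf₂O : ∀ g, f₂ g ∈ O := by
    intro g
    simp only [hf₂]
    split_ifs with h
    · exact zero_mem _
    · obtain ⟨k, hk⟩ : p ∣ st g := by
        have : Fact p.Prime := ⟨hp⟩
        obtain ⟨j, hj⟩ := IsPGroup.iff_card.1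
          (hU.to_subgroup (MulAction.stabilizer U (QuotientGroup.mk g⁻¹ : G ⧸ U)))
        simp only [hstd, hj]
        refine dvd_pow_self p fun h0 => hst g h (Subgroup.eq_bot_of_card_eq _ ?_)
        rw [hj, h0, pow_zero]
      rw [hσT, hk, Nat.cast_mul, mul_assoc,
        mul_div_cancel_left₀ _ (Nat.cast_ne_zero.2 hp.ne_zero)]
      exact mul_mem (natCast_mem O _) (Algebra.subset_adjoin ⟨_, rfl⟩)
  refine ⟨(m : ℂ) • ((Nat.card U : ℂ)⁻¹ • ∑ g : G, f₁ g • ee U ρ g),
    (m : ℂ) • ((Nat.card U : ℂ)⁻¹ • ∑ g : G, f₂ g • ee U ρ g), ?_, ?_, ?_⟩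
  · rw [← Finset.sum_fiberwise_of_maps_to (g := dc U) (t := Finset.univ.image (dc U))
      (fun g _ => Finset.mem_image_of_mem _ (Finset.mem_univ g)), Finset.smul_sum, Finset.smul_sum]
    refine Submodule.sum_mem _ fun c hc => ?_
    obtain ⟨d, -, rfl⟩ := Finset.mem_image.1 hc
    have h : ∀ g ∈ Finset.univ.filter (fun g : G => dc U g = dc U d),
        f₁ g • ee U ρ g = f₁ d • ee U ρ d := by
      intro g hg
      obtain ⟨u, hu, v, hv, rfl⟩ := dc_eq_iff.1 (Finset.mem_filter.1 hg).2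
      simp only [hf₁, hQ u hu v hv d, hσb u hu v hv, ee_mul_mem hv, ee_mem_mul hu]
    rw [Finset.sum_congr rfl h, Finset.sum_const, card_dc, ← Nat.cast_smul_eq_nsmul ℂ, smul_smul,
      Nat.cast_mul]
    rw [show ((m : ℂ) * (Nat.card U : ℂ)⁻¹) • ((Nat.card U : ℂ) * (orb U d : ℂ)) • f₁ d • ee U ρ d =
        ((m : ℂ) * f₁ d) • TT U ρ d by
      have hU0 : (Nat.card U : ℂ) ≠ 0 := Nat.cast_ne_zero.2 Nat.card_pos.ne'
      rw [TT, smul_smul, smul_smul, smul_smul]
      congr 1
      field_simp]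
    simp only [hf₁]
    split_ifs with h'
    · exact Submodule.smul_mem _ (⟨_, mul_mem (natCast_mem O m) (hσO d)⟩ : O)
        (Submodule.subset_span ⟨d, h', rfl⟩)
    · rw [mul_zero, zero_smul]; exact zero_mem _
  · refine smul_mem_order O (natCast_mem O m) (sum_mem_order O f₂ hf₂O ?_)
    intro u hu v hv g
    simp only [hf₂, hQ u hu v hv g, hσb u hu v hv g]
  · rw [← Nat.cast_smul_eq_nsmul ℂ, ← hident, ← Nat.cast_smul_eq_nsmul ℂ, smul_comm (p : ℂ),
      ← smul_add, smul_comm (p : ℂ), ← smul_add, Finset.smul_sum (r := (p : ℂ)),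
      ← Finset.sum_add_distrib]
    congr 2
    refine Fintype.sum_congr _ _ fun g => ?_
    rw [smul_smul, ← add_smul]
    congr 1
    simp only [hf₁, hf₂]
    split_ifs
    · ring
    · rw [mul_div_cancel₀ _ (Nat.cast_ne_zero.2 hp.ne_zero), zero_add]

/-- With scalar compressions the character is an average of the scalars. -/
theorem char_eq_of_scalar [ρ.IsIrreducible] {f : G → ℂ} (hf : ∀ g, ee U ρ g = f g • avg U ρ)
    (x : G) :
    (Nat.card G : ℂ) * ρ.character x = (r : ℂ) * ∑ g : G, f (g⁻¹ * x * g) ∨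
      LinearMap.trace ℂ (Fin r → ℂ) (avg U ρ) = 0 := by
  classical
  refine or_iff_not_imp_right.2 fun htr => ?_
  obtain ⟨c, hc⟩ := exists_scalar (ρ := ρ) (∑ g : G, ρ g * avg U ρ * ρ g⁻¹) fun y => by
    rw [Finset.sum_mul, Finset.mul_sum]
    refine Fintype.sum_equiv (Equiv.mulLeft y⁻¹) _ _ fun g => ?_
    simp [← mul_assoc, mul_inv_rev, ← map_mul]
    rw [mul_assoc _ (ρ g⁻¹), ← map_mul]
  have hr : (r : ℂ) ≠ 0 := by
    have := H25.finrank_pos_of_isIrreducible ρ
    rw [Module.finrank_fin_fun] at this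
    exact Nat.cast_ne_zero.2 this.ne'
  set t := LinearMap.trace ℂ (Fin r → ℂ) (avg U ρ) with ht
  have hc' : c * (r : ℂ) = (Nat.card G : ℂ) * t := by
    have h1 := congrArg (LinearMap.trace ℂ (Fin r → ℂ)) hc
    simp only [map_sum, map_smul, smul_eq_mul, LinearMap.trace_one, Module.finrank_fin_fun] at h1
    rw [← h1]
    have : ∀ g : G, LinearMap.trace ℂ (Fin r → ℂ) (ρ g * avg U ρ * ρ g⁻¹) = t := fun g => by
      rw [LinearMap.trace_mul_comm, ← mul_assoc, ← map_mul, inv_mul_cancel, map_one, one_mul]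
    simp [this, Nat.card_eq_fintype_card]
  have h2 := congrArg (fun A => LinearMap.trace ℂ (Fin r → ℂ) (ρ x * A)) hc
  simp only [Finset.mul_sum, map_sum, mul_smul_comm, mul_one, map_smul, smul_eq_mul] at h2
  have h3 : ∀ g : G, LinearMap.trace ℂ (Fin r → ℂ) (ρ x * (ρ g * avg U ρ * ρ g⁻¹)) =
      f (g⁻¹ * x * g) * t := fun g => by
    rw [← mul_assoc, ← mul_assoc, ← map_mul, LinearMap.trace_mul_comm, ← mul_assoc, ← map_mul,
      mul_assoc g⁻¹ x g, LinearMap.trace_mul_comm, ← trace_ee, hf, map_smul, smul_eq_mul]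
  rw [Fintype.sum_congr _ _ h3, ← Finset.sum_mul] at h2
  refine mul_right_cancel₀ htr ?_
  rw [mul_assoc _ (∑ g : G, f (g⁻¹ * x * g)), h2,
    show LinearMap.trace ℂ (Fin r → ℂ) (ρ x) = ρ.character x from rfl, mul_left_comm, ← mul_assoc,
    hc']
  ring

end Cfsg.Agent.H68.Hecke
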