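import Cfsg.Prelude.Def_PLocal
import Cfsg.Prelude.Def_LocalEven
import Mathlib

/-!
p-subgroups of `SL₂` in odd characteristic are commutative; hence `Qd(p)` is not involved in `PSL₂`.
-/

set_option autoImplicit false

namespace Cfsg.Agent.H68

/-- All `p`-subgroups of `G` are commutative. -/
def PSubgroupsComm (p : ℕ) (G : Type*) [Group G] : Prop :=
  ∀ P : Subgroup G, IsPGroup p P → ∀ x ∈ P, ∀ y ∈ P, x * y = y * x

/-- Commutativity of `p`-subgroups passes to quotients of finite groups. -/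
theorem PSubgroupsComm.of_surjective {p : ℕ} [Fact p.Prime] {G H : Type*} [Group G] [Group H] [Finite G]
    (f : G →* H) (hf : Function.Surjective f) (h : PSubgroupsComm p G) : PSubgroupsComm p H := by
  intro P hP x hx y hy
  obtain ⟨Q, hQ⟩ := hP.exists_le_sylow
  have hF : Finite H := Finite.of_surjective f hf
  obtain ⟨S, hS⟩ := Sylow.mapSurjective_surjective hf p Q
  have hx' : x ∈ (S.mapSurjective hf : Subgroup H) := by rw [hS]; exact hQ hx
  have hy' : y ∈ (S.mapSurjective hf : Subgroup H) := by rw [hS]; exact hQ hy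
  rw [Sylow.coe_mapSurjective, Subgroup.mem_map] at hx' hy'
  obtain ⟨a, ha, rfl⟩ := hx'
  obtain ⟨b, hb, rfl⟩ := hy'
  rw [← map_mul, ← map_mul, h S S.isPGroup' a ha b hb]

/-- Commutativity of `p`-subgroups passes to subgroups. -/
theorem PSubgroupsComm.subgroup {p : ℕ} {G : Type*} [Group G] (h : PSubgroupsComm p G) (K : Subgroup G) :
    PSubgroupsComm p K := by
  intro P hP x hx y hy
  apply Subtype.ext
  exact h (P.map K.subtype) (hP.map _) x ⟨x, hx, rfl⟩ y ⟨y, hy, rfl⟩

/-- Two `2 × 2` matrices commuting with the same non-scalar matrix commute. -/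
theorem commute_of_commute_nonscalar {K : Type*} [Field K] (g h z : Matrix (Fin 2) (Fin 2) K)
    (hz : ¬ (z 0 1 = 0 ∧ z 1 0 = 0 ∧ z 0 0 = z 1 1)) (hg : g * z = z * g) (hh : h * z = z * h) :
    g * h = h * g := by
  have key : ∀ m : Matrix (Fin 2) (Fin 2) K, m * z = z * m → ∃ a b : K, m = a • 1 + b • z := by
    intro m hm
    have e00 := congrArg (fun M => M 0 0) hm
    have e01 := congrArg (fun M => M 0 1) hm
    have e10 := congrArg (fun M => M 1 0) hm
    simp only [Matrix.mul_apply, Fin.sum_univ_two] at e00 e01 e10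
    by_cases h1 : z 0 1 = 0
    · by_cases h2 : z 1 0 = 0
      · have h3 : z 0 0 - z 1 1 ≠ 0 := sub_ne_zero.mpr fun h => hz ⟨h1, h2, h⟩
        have m01 : m 0 1 = 0 := by
          have h4 : m 0 1 * (z 0 0 - z 1 1) = 0 := by
            rw [h1] at e01; linear_combination -e01
          exact (mul_eq_zero.mp h4).resolve_right h3
        have m10 : m 1 0 = 0 := by
          have h4 : m 1 0 * (z 0 0 - z 1 1) = 0 := by
            rw [h2] at e10; linear_combination e10
          exact (mul_eq_zero.mp h4).resolve_right h3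
        refine ⟨m 0 0 - (m 0 0 - m 1 1) / (z 0 0 - z 1 1) * z 0 0,
          (m 0 0 - m 1 1) / (z 0 0 - z 1 1), ?_⟩
        ext i j
        fin_cases i <;> fin_cases j <;> simp [h1, h2, m01, m10] <;> field_simp <;> ring
      · refine ⟨m 0 0 - m 1 0 / z 1 0 * z 0 0, m 1 0 / z 1 0, ?_⟩
        rw [h1] at e00
        have m01 : m 0 1 = 0 := by
          have h4 : m 0 1 * z 1 0 = 0 := by linear_combination e00
          exact (mul_eq_zero.mp h4).resolve_right h2
        ext i j
        fin_cases i <;> fin_cases j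
        · simp
        · simp [h1, m01]
        · simp [h2]
        · simp only [Matrix.add_apply, Matrix.smul_apply, smul_eq_mul]
          simp
          field_simp
          linear_combination e10
    · refine ⟨m 0 0 - m 0 1 / z 0 1 * z 0 0, m 0 1 / z 0 1, ?_⟩
      ext i j
      fin_cases i <;> fin_cases j
      · simp
      · simp [h1]
      · simp
        field_simp
        linear_combination -e00
      · simp
        field_simp
        linear_combination -e01
  obtain ⟨a, b, rfl⟩ := key g hg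
  obtain ⟨c, d, rfl⟩ := key h hh
  simp only [add_mul, mul_add, smul_mul_assoc, mul_smul_comm, one_mul, mul_one]
  module

/-- In odd characteristic `p` the `p`-subgroups of `SL₂` are commutative. -/
theorem pSubgroupsComm_SL2 {p : ℕ} [Fact p.Prime] (hp : p ≠ 2) {K : Type*} [Field K] [Fintype K]
    [CharP K p] : PSubgroupsComm p (Matrix.SpecialLinearGroup (Fin 2) K) := by
  classical
  intro P hP x hx y hy
  rcases subsingleton_or_nontrivial P with hs | hn
  · have := Subsingleton.elim (⟨x, hx⟩ : P) ⟨y, hy⟩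
    rw [show x = y from congrArg Subtype.val this]
  · have hc : Nontrivial (Subgroup.center P) := hP.center_nontrivial
    obtain ⟨⟨z, hzc⟩, hz1⟩ := exists_ne (1 : Subgroup.center P)
    have hzne : (z : Matrix.SpecialLinearGroup (Fin 2) K) ≠ 1 := fun h =>
      hz1 (Subtype.ext (Subtype.ext h))
    have hcomm : ∀ m ∈ P, m * (z : Matrix.SpecialLinearGroup (Fin 2) K) = z * m := fun m hm =>
      congrArg Subtype.val (Subgroup.mem_center_iff.mp hzc ⟨m, hm⟩)
    apply Subtype.ext
    refine commute_of_commute_nonscalar _ _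
      ((z : Matrix.SpecialLinearGroup (Fin 2) K) : Matrix (Fin 2) (Fin 2) K) ?_
      (congrArg Subtype.val (hcomm x hx)) (congrArg Subtype.val (hcomm y hy))
    rintro ⟨h01, h10, h00⟩
    obtain ⟨k, hk⟩ := hP z
    have hk' : ((z : Matrix.SpecialLinearGroup (Fin 2) K) : Matrix (Fin 2) (Fin 2) K) ^ (p ^ k) = 1 := by
      have := congrArg (fun t : P => ((t : Matrix.SpecialLinearGroup (Fin 2) K) : Matrix (Fin 2) (Fin 2) K)) hk
      simpa using this
    set a := ((z : Matrix.SpecialLinearGroup (Fin 2) K) : Matrix (Fin 2) (Fin 2) K) 0 0 with ha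
    have hd : ((z : Matrix.SpecialLinearGroup (Fin 2) K) : Matrix (Fin 2) (Fin 2) K) =
        Matrix.scalar (Fin 2) a := by
      ext i j
      fin_cases i <;> fin_cases j <;> simp [Matrix.scalar_apply, h01, h10, ha, ← h00]
    have hapow : a ^ (p ^ k) = 1 := by
      rw [hd, ← map_pow] at hk'
      exact Matrix.scalar_inj.mp (hk'.trans (map_one (Matrix.scalar (Fin 2))).symm)
    have ha1 : a = 1 := by
      have := iterateFrobenius_inj K p k (a₁ := a) (a₂ := 1)
        (by simp [iterateFrobenius_def, hapow])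
      exact this
    apply hzne
    apply Subtype.ext
    rw [hd, ha1, map_one]
    simp

/-- `Qd(p)` has a non-commutative `p`-subgroup. -/
theorem not_pSubgroupsComm_qd {p : ℕ} [Fact p.Prime] : ¬ PSubgroupsComm p ↥(Cfsg.qd p) := by
  classical
  intro h
  let S : Set (Matrix.SpecialLinearGroup (Fin 3) (ZMod p)) :=
    {M | (M : Matrix (Fin 3) (Fin 3) (ZMod p)) 1 0 = 0 ∧ (M : Matrix (Fin 3) (Fin 3) (ZMod p)) 2 0 = 0 ∧
      (M : Matrix (Fin 3) (Fin 3) (ZMod p)) 2 1 = 0 ∧ (M : Matrix (Fin 3) (Fin 3) (ZMod p)) 0 0 = 1 ∧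
      (M : Matrix (Fin 3) (Fin 3) (ZMod p)) 1 1 = 1 ∧ (M : Matrix (Fin 3) (Fin 3) (ZMod p)) 2 2 = 1}
  let U : Submonoid (Matrix.SpecialLinearGroup (Fin 3) (ZMod p)) :=
    { carrier := S
      one_mem' := by simp [S]
      mul_mem' := by
        intro a b ha hb
        obtain ⟨a1, a2, a3, a4, a5, a6⟩ := ha
        obtain ⟨b1, b2, b3, b4, b5, b6⟩ := hb
        simp [S, Matrix.mul_apply, Fin.sum_univ_three, a1, a2, a3, a4, a5, a6, b1, b2, b3, b4, b5, b6] }
  let U' : Subgroup (Matrix.SpecialLinearGroup (Fin 3) (ZMod p)) :=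
    { U with
      inv_mem' := fun {a} ha => (Submonoid.powers_le.mpr ha : Submonoid.powers a ≤ U)
        (mem_powers_iff_mem_zpowers.mpr (inv_mem (Subgroup.mem_zpowers a))) }
  have hU : ∀ M, M ∈ U' ↔ M ∈ S := fun M => Iff.rfl
  have hle : U' ≤ Cfsg.qd p := by
    intro M hM
    obtain ⟨_, h2, h3, _, _, h6⟩ := (hU M).mp hM
    exact Subgroup.subset_closure ⟨h2, h3, h6⟩
  have hcube : ∀ M ∈ U', ((M : Matrix (Fin 3) (Fin 3) (ZMod p)) - 1) ^ 3 = 0 := by
    intro M hM
    obtain ⟨h1, h2, h3, h4, h5, h6⟩ := (hU M).mp hM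
    ext i j
    fin_cases i <;> fin_cases j <;>
      simp [pow_succ, Matrix.mul_apply, Fin.sum_univ_three, h1, h2, h3, h4, h5, h6]
  have hP : IsPGroup p U' := by
    intro M
    refine ⟨2, Subtype.ext (Subtype.ext ?_)⟩
    have hc := hcube M M.2
    have hp3 : 3 ≤ p ^ 2 := le_trans (by norm_num) (Nat.pow_le_pow_left (Fact.out : p.Prime).two_le 2)
    obtain ⟨k, hk⟩ := Nat.exists_eq_add_of_le hp3
    have h0 : ((((M : Matrix.SpecialLinearGroup (Fin 3) (ZMod p))) : Matrix (Fin 3) (Fin 3) (ZMod p)) - 1) ^ (p ^ 2) = 0 := by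
      rw [hk, pow_add, hc, zero_mul]
    rw [sub_pow_char_pow_of_commute _ _ (Commute.one_right _), one_pow, sub_eq_zero] at h0
    simpa using h0
  let x : Matrix.SpecialLinearGroup (Fin 3) (ZMod p) :=
    ⟨!![1, 1, 0; 0, 1, 0; 0, 0, 1], by simp [Matrix.det_fin_three]⟩
  let y : Matrix.SpecialLinearGroup (Fin 3) (ZMod p) :=
    ⟨!![1, 0, 0; 0, 1, 1; 0, 0, 1], by simp [Matrix.det_fin_three]⟩
  have hx : x ∈ U' := by refine (hU _).mpr ⟨?_, ?_, ?_, ?_, ?_, ?_⟩ <;> rfl
  have hy : y ∈ U' := by refine (hU _).mpr ⟨?_, ?_, ?_, ?_, ?_, ?_⟩ <;> rfl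
  have hcomm := h (U'.subgroupOf (Cfsg.qd p)) (hP.comap_of_injective (Cfsg.qd p).subtype Subtype.val_injective)
    ⟨x, hle hx⟩ hx ⟨y, hle hy⟩ hy
  have h02 := congrArg (fun t : ↥(Cfsg.qd p) =>
    ((t : Matrix.SpecialLinearGroup (Fin 3) (ZMod p)) : Matrix (Fin 3) (Fin 3) (ZMod p)) 0 2) hcomm
  change (x.1 * y.1) 0 2 = (y.1 * x.1) 0 2 at h02
  simp [x, y, Matrix.mul_apply, Fin.sum_univ_three] at h02

end Cfsg.Agent.H68
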