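import Cfsg.Agent.H6.Orbits
import Cfsg.Agent.H6.SmallOrder

/-!
# Solvable subgroups of `PSL₂(q)` and solubilisers

A non-trivial solvable subgroup lies in a Borel subgroup, in the normaliser of a torus, or in the
normaliser of a four-group.
-/

set_option autoImplicit false

open Matrix MatrixGroups

namespace Cfsg.Agent.H68.Solub

open Cfsg.Agent.H6

section General

variable {G : Type*} [Group G]

/-- `x` and `y` generate a solvable subgroup. -/
def Solv (x y : G) : Prop := Group.IsSolvable (Subgroup.closure ({x, y} : Set G))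

theorem solv_of_mem {x y : G} (S : Subgroup G) [hS : Group.IsSolvable S] (hx : x ∈ S) (hy : y ∈ S) :
    Solv x y := by
  have h : Subgroup.closure ({x, y} : Set G) ≤ S := by
    rw [Subgroup.closure_le, Set.insert_subset_iff, Set.singleton_subset_iff]
    exact ⟨hx, hy⟩
  exact Group.isSolvable_of_isSolvable_injective (Subgroup.inclusion_injective h)

theorem solv_conj {H : Type*} [Group H] (e : G ≃* H) (x y : G) : Solv (e x) (e y) ↔ Solv x y := by
  have h : Subgroup.closure ({e x, e y} : Set H) = (Subgroup.closure ({x, y} : Set G)).map e.toMonoidHom := by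
    rw [MonoidHom.map_closure, Set.image_pair]; rfl
  have i : Subgroup.closure ({x, y} : Set G) ≃* Subgroup.closure ({e x, e y} : Set H) :=
    ((Subgroup.closure ({x, y} : Set G)).equivMapOfInjective _ e.injective).trans
      (MulEquiv.subgroupCongr h.symm)
  exact ⟨fun hs => @Group.isSolvable_of_isSolvable_injective _ _ _ _ i.toMonoidHom i.injective hs,
    fun hs => @Group.isSolvable_of_isSolvable_injective _ _ _ _ i.symm.toMonoidHom i.symm.injective hs⟩

theorem card_solv_conj (x c : G) :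
    Nat.card {y : G // Solv (c * x * c⁻¹) y} = Nat.card {y : G // Solv x y} :=
  Nat.card_congr (((MulAut.conj c).toEquiv.subtypeEquiv fun y => (solv_conj (MulAut.conj c) x y).symm).symm)

theorem isSolvable_ext {B : Subgroup G} {H : Type*} [CommGroup H] (f : B →* H)
    (hf : ∀ a b : f.ker, a * b = b * a) : Group.IsSolvable B := by
  have : Group.IsSolvable f.ker := Group.isSolvable_of_comm hf
  exact Group.isSolvable_of_ker_le_range f.ker.subtype f (by rw [Subgroup.range_subtype])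

/-- A solvable subgroup normalises a non-trivial abelian subgroup of itself. -/
theorem exists_abelian_normal (S : Subgroup G) [Group.IsSolvable S] (hS : S ≠ ⊥) :
    ∃ A : Subgroup G, A ≤ S ∧ A ≠ ⊥ ∧ (∀ a ∈ A, ∀ b ∈ A, a * b = b * a) ∧
      ∀ s ∈ S, ∀ a ∈ A, s * a * s⁻¹ ∈ A := by
  classical
  have hex : ∃ n, derivedSeries S n = ⊥ := Group.IsSolvable.solvable
  obtain ⟨k, hk⟩ : ∃ k, Nat.find hex = k + 1 := by
    refine ⟨Nat.find hex - 1, (Nat.succ_pred_eq_of_pos (Nat.pos_of_ne_zero fun h0 => hS ?_)).symm⟩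
    have h := Nat.find_spec hex
    rw [h0, derivedSeries_zero] at h
    rw [← Subgroup.range_subtype S, MonoidHom.range_eq_map, h, Subgroup.map_bot]
  have h1 : derivedSeries S (k + 1) = ⊥ := hk ▸ Nat.find_spec hex
  have h0 : derivedSeries S k ≠ ⊥ := Nat.find_min hex (by omega)
  refine ⟨(derivedSeries S k).map S.subtype, Subgroup.map_subtype_le _, fun h => h0 ?_, ?_, ?_⟩
  · exact (Subgroup.map_eq_bot_iff_of_injective _ S.subtype_injective).1 h
  · rintro _ ⟨a, ha, rfl⟩ _ ⟨b, hb, rfl⟩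
    rw [derivedSeries_succ] at h1
    have := Subgroup.commutator_mem_commutator ha hb
    rw [h1, Subgroup.mem_bot, commutatorElement_eq_one_iff_mul_comm] at this
    rw [← map_mul, ← map_mul, this]
  · rintro s hs _ ⟨a, ha, rfl⟩
    exact ⟨⟨s, hs⟩ * a * ⟨s, hs⟩⁻¹, (derivedSeries_normal S k).conj_mem a ha _, rfl⟩

/-- Preimages multiply cardinalities by the order of the kernel. -/
theorem card_preimage {H : Type*} [Group H] [Finite G] (f : G →* H) (hf : Function.Surjective f)
    (P : H → Prop) :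
    Nat.card {g : G // P (f g)} = Nat.card {y : H // P y} * Nat.card f.ker := by
  classical
  rw [← Nat.card_prod]
  choose s hs using hf
  refine Nat.card_eq_of_bijective
    (fun g => (⟨f g.1, g.2⟩, ⟨(s (f g.1))⁻¹ * g.1, by rw [MonoidHom.mem_ker]; simp [hs]⟩)) ⟨?_, ?_⟩
  · rintro ⟨a, ha⟩ ⟨b, hb⟩ h
    simp only [Prod.mk.injEq, Subtype.mk.injEq] at h
    refine Subtype.ext ?_
    have := h.2
    rw [h.1] at this
    exact mul_left_cancel this
  · rintro ⟨⟨y, hy⟩, ⟨k, hk⟩⟩
    have hfy : f (s y * k) = y := by rw [map_mul, hs, MonoidHom.mem_ker.1 hk, mul_one]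
    refine ⟨⟨s y * k, by rw [hfy]; exact hy⟩, Prod.ext (Subtype.ext hfy) (Subtype.ext ?_)⟩
    simp [hfy]

end General

variable {F : Type*} [Field F]

instance isSolvable_Uinf : Group.IsSolvable (Uinf F) := by
  refine Group.isSolvable_of_comm fun a b => Subtype.ext ?_
  obtain ⟨r, hr⟩ := mem_Uinf.1 a.2
  obtain ⟨s, hs⟩ := mem_Uinf.1 b.2
  show (a : PSL(2, F)) * b = b * a
  rw [← hr, ← hs, ← map_mul, ← map_mul, ← up_add, ← up_add, add_comm]

instance isSolvable_borel : Group.IsSolvable (borel F) :=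
  isSolvable_ext chiB fun a b => by
    obtain ⟨r, hr⟩ := mem_Uinf.1 ((chiB_eq_one_iff a.1).1 (MonoidHom.mem_ker.1 a.2))
    obtain ⟨s, hs⟩ := mem_Uinf.1 ((chiB_eq_one_iff b.1).1 (MonoidHom.mem_ker.1 b.2))
    refine Subtype.ext (Subtype.ext ?_)
    show ((a.1 : borel F) : PSL(2, F)) * (b.1 : borel F) = (b.1 : borel F) * (a.1 : borel F)
    rw [← hr, ← hs, ← map_mul, ← map_mul, ← up_add, ← up_add, add_comm]

variable [Fintype F]

theorem isSolvable_torDih {g : SL(2, F)} (ht : tr g ^ 2 ≠ 4) : Group.IsSolvable (torDih g) := by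
  have := tor_cyclic ht
  have : Group.IsSolvable (tor g) := Group.isSolvable_of_comm IsCyclic.commGroup.mul_comm
  have hn : ((tor g).subgroupOf (torDih g)).Normal := by
    rw [← normalizer_tor ht]
    exact Subgroup.normal_in_normalizer
  have h := ((tor g).subgroupOf (torDih g)).card_mul_index
  rw [Nat.card_congr (Subgroup.subgroupOfEquivOfLe (tor_le_torDih g)).toEquiv, card_torDih ht] at h
  have hi : ((tor g).subgroupOf (torDih g)).index = 2 :=
    Nat.eq_of_mul_eq_mul_left (Nat.card_pos (α := tor g)) (h.trans (mul_comm _ _))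
  have : Fact (Nat.Prime 2) := ⟨Nat.prime_two⟩
  have hc : IsCyclic (torDih g ⧸ (tor g).subgroupOf (torDih g)) :=
    isCyclic_of_prime_card (p := 2) (by rw [← Subgroup.index_eq_card, hi])
  exact Group.isSolvable_of_ker_le_range
    (Subgroup.inclusion (tor_le_torDih g)) (QuotientGroup.mk' ((tor g).subgroupOf (torDih g)))
    (fun x hx => ⟨⟨x.1, by simpa [Subgroup.mem_subgroupOf] using hx⟩, rfl⟩)
    (hG'' := Group.isSolvable_of_comm IsCyclic.commGroup.mul_comm)

/-- A commuting element of a semisimple element that is not an involution is in its torus. -/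
theorem mem_tor_of_commute {g : SL(2, F)} (ht : tr g ^ 2 ≠ 4) (h0 : (2 : F) = 0 ∨ tr g ≠ 0)
    {y : PSL(2, F)} (hc : y * π g = π g * y) : y ∈ tor g := by
  obtain ⟨h, rfl⟩ := π_surjective y
  rw [← map_mul, ← map_mul] at hc
  refine mem_tor.2 (mem_cent.2 ?_)
  rcases π_eq_iff.1 hc with e | e
  · exact e.symm
  · by_cases h2 : (2 : F) = 0
    · have h1 : (-1 : SL(2, F)) = 1 := by
        apply sl2_ext <;> simp [sl2_neg, neg_eq_iff_add_eq_zero, one_add_one_eq_two, h2]
      rw [e, ← neg_one_mul, h1, one_mul]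
    · exfalso
      have h3 : h * g * h⁻¹ = -g := by rw [e, neg_mul, mul_inv_cancel_right]
      have h4 := tr_conj h g
      rw [h3, tr_neg] at h4
      exact h0.resolve_left h2
        ((mul_eq_zero.1 (show 2 * tr g = 0 by linear_combination (-1 : F) * h4)).resolve_left h2)

/-- The shape of a solvable subgroup of `PSL₂`. -/
theorem solvable_cases (S : Subgroup PSL(2, F)) [Group.IsSolvable S] (hS : S ≠ ⊥) :
    (∃ c, ∀ z ∈ S, c * z * c⁻¹ ∈ borel F) ∨ (∃ g : SL(2, F), tr g ^ 2 ≠ 4 ∧ S ≤ torDih g) ∨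
      ((2 : F) ≠ 0 ∧ ∃ V : Subgroup PSL(2, F), IsKleinFour V ∧
        S ≤ Subgroup.normalizer (V : Set PSL(2, F))) := by
  classical
  obtain ⟨A, hAS, hA, hcomm, hnorm⟩ := exists_abelian_normal S hS
  by_cases hu : ∃ a ∈ A, a ≠ 1 ∧ ¬ IsSS a
  · obtain ⟨a, ha, ha1, has⟩ := hu
    obtain ⟨c, hc⟩ := exists_conj_Uinf ha1 has
    left
    refine ⟨c, fun s hs => ?_⟩
    have hAM : ∀ b ∈ A, b ∈ mx a := fun b hb =>
      mem_of_commute_isUni ⟨c, hc⟩ (self_mem_mx a) ha1 (hcomm b hb a ha)
    have hb1 : s * a * s⁻¹ ≠ 1 := fun e => ha1 (conj_eq_one_iff.1 e)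
    have he : cj s (mx a) = mx a := by
      rw [cj, ← mx_conj]
      exact mx_eq_of_mem ha1 (hAM _ (hnorm s hs a ha)) hb1
    have he' : cj (c * s * c⁻¹) (Uinf F) = Uinf F := by
      have hc' : cj c (mx a) = Uinf F := hc
      rw [← hc', cj_cj, inv_mul_cancel_right, ← cj_cj, he]
    have := cj_eq_iff_mem_normalizer.1 he'
    rwa [normalizer_Uinf] at this
  push Not at hu
  obtain ⟨a₀, ha₀, ha₀1⟩ := A.bot_or_exists_ne_one.resolve_left hA
  by_cases hni : ∃ a ∈ A, ∃ g : SL(2, F), π g = a ∧ tr g ^ 2 ≠ 4 ∧ ((2 : F) = 0 ∨ tr g ≠ 0)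
  · obtain ⟨a, ha, g, rfl, ht, h0⟩ := hni
    refine Or.inr (Or.inl ⟨g, ht, fun s hs => ?_⟩)
    obtain ⟨h, rfl⟩ := π_surjective s
    have hm := mem_tor_of_commute ht h0 (hcomm _ (hnorm _ hs _ ha) _ ha)
    rw [← map_inv, ← map_mul, ← map_mul, mem_tor] at hm
    rw [torDih, mem_map_π (center_le_torNorm g), mem_torNorm ht]
    exact conj_eq_or_eq_inv ht (not_isScal_of_ss ht) hm
  push Not at hni
  obtain ⟨g, hg, ht⟩ := hu a₀ ha₀ ha₀1
  obtain ⟨h2, htr⟩ := hni a₀ ha₀ g hg ht
  subst hg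
  have hinv : ∀ a ∈ A, a ≠ 1 → orderOf a = 2 := fun a ha ha1 => by
    obtain ⟨k, hk, hkt⟩ := hu a ha ha1
    rw [← hk, orderOf_π_eq_two_iff h2]
    exact (hni a ha k hk hkt).2
  by_cases hsmall : ∀ a ∈ A, a = 1 ∨ a = π g
  · refine Or.inr (Or.inl ⟨g, ht, fun s hs => (mem_centralizer_involution h2 htr).1 ?_⟩)
    rcases hsmall _ (hnorm s hs _ ha₀) with e | e
    · exact absurd (conj_eq_one_iff.1 e) ha₀1
    · exact mul_inv_eq_iff_eq_mul.1 e
  push Not at hsmall
  obtain ⟨b, hb, hb1, hbg⟩ := hsmall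
  have hmem : ∀ a ∈ A, a ∈ torDih g := fun a ha =>
    (mem_centralizer_involution h2 htr).1 (hcomm a ha _ ha₀)
  have hout : ∀ a ∈ A, a ≠ 1 → a ≠ π g → a ∉ tor g := fun a ha ha1 hag hat =>
    hag (eq_of_involution_mem_tor h2 htr hat (hinv a ha ha1))
  have hfour : ∀ a ∈ A, a = 1 ∨ a = π g ∨ a = b ∨ a = π g * b := by
    intro a ha
    by_cases ha1 : a = 1
    · exact Or.inl ha1
    by_cases hag : a = π g
    · exact Or.inr (Or.inl hag)
    have hab : a * b ∈ tor g := mul_mem_tor ht (hmem a ha) (hout a ha ha1 hag) (hmem b hb)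
      (hout b hb hb1 hbg)
    have hbb : b * b = 1 := by
      have := pow_orderOf_eq_one b
      rwa [hinv b hb hb1, sq] at this
    by_cases h : a * b = 1
    · exact Or.inr (Or.inr (Or.inl ((mul_eq_one_iff_eq_inv.1 h).trans
        (mul_eq_one_iff_eq_inv.1 hbb).symm)))
    · have e := eq_of_involution_mem_tor h2 htr hab (hinv _ (mul_mem ha hb) h)
      exact Or.inr (Or.inr (Or.inr (by rw [← e, mul_assoc, hbb, mul_one])))
  refine Or.inr (Or.inr ⟨h2, A, ?_, fun s hs => Subgroup.mem_normalizer_iff.2 fun a =>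
    ⟨hnorm s hs a, fun h => ?_⟩⟩)
  · refine ⟨?_, ?_⟩
    · have hne : π g ≠ 1 := ha₀1
      have hset : (A : Set PSL(2, F)) = {1, π g, b, π g * b} := by
        ext a
        refine ⟨fun ha => hfour a ha, fun ha => ?_⟩
        rcases ha with rfl | rfl | rfl | rfl
        exacts [one_mem A, ha₀, hb, mul_mem ha₀ hb]
      rw [show Nat.card A = (A : Set PSL(2, F)).ncard from Nat.card_coe_set_eq _, hset]
      have hgg : π g * π g = 1 := by
        have := pow_orderOf_eq_one (π g)
        rwa [hinv _ ha₀ ha₀1, sq] at this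
      have h1 : π g * b ≠ 1 := fun e => hbg ((mul_eq_one_iff_eq_inv'.1 e).trans
        (mul_eq_one_iff_eq_inv'.1 hgg).symm)
      have h3 : π g * b ≠ π g := fun e => hb1 (mul_eq_left.1 e)
      have h4 : π g * b ≠ b := fun e => hne (mul_eq_right.1 e)
      rw [Set.ncard_insert_of_notMem (by simp [hne.symm, Ne.symm hb1, h1.symm]),
        Set.ncard_insert_of_notMem (by simp [Ne.symm hbg, h3.symm]),
        Set.ncard_pair h4.symm]
    · have : Nontrivial A := ⟨⟨⟨π g, ha₀⟩, 1, fun e => ha₀1 (congrArg Subtype.val e)⟩⟩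
      refine (Monoid.exponent_eq_prime_iff (G := A) Nat.prime_two).2 fun a ha => ?_
      rw [← Subgroup.orderOf_coe]
      exact hinv a a.2 fun e => ha (Subtype.ext e)
  · have := hnorm s⁻¹ (inv_mem hs) _ h
    simpa [mul_assoc] using this

end Cfsg.Agent.H68.Solub
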