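import Cfsg.Agent.H68.SolubilizerCore

/-!
# Solubilisers of semisimple elements of `PSL₂(q)`, in coordinates
-/

set_option autoImplicit false

open Matrix MatrixGroups

namespace Cfsg.Agent.H68.Solub

open Cfsg.Agent.H6

variable {F : Type*} [Field F]

theorem det_upper {g : SL(2, F)} (h : g 1 0 = 0) : g 0 0 * g 1 1 = 1 := by
  have d := sl2_det g
  rw [h] at d
  linear_combination d

/-- The entry below the diagonal of a conjugate. -/
theorem conj_entry (c z : SL(2, F)) :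
    (c * z * c⁻¹) 1 0 =
      c 1 0 * c 1 1 * (z 0 0 - z 1 1) + c 1 1 ^ 2 * z 1 0 - c 1 0 ^ 2 * z 0 1 := by
  simp [sl2_mul, sl2_inv_00, sl2_inv_10]
  ring

theorem split_of_conj_upper {c z : SL(2, F)} (h : (c * z * c⁻¹) 1 0 = 0) : Split (tr z) := by
  refine ⟨(c * z * c⁻¹) 0 0, ?_⟩
  have h1 := det_upper h
  rw [← tr_conj c z]
  simp only [tr]
  linear_combination (-1 : F) * h1

/-- An element inverting a torus has trace zero. -/
theorem tr_eq_zero_of_inverts [Fintype F] {g z : SL(2, F)} (ht : tr g ^ 2 ≠ 4)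
    (hz : z * g * z⁻¹ = g⁻¹) : tr z = 0 := by
  by_contra hne
  have hsc := sq_isScal ht hz
  have hs : IsScal z := by
    obtain ⟨h1, h2, h3⟩ := hsc
    have e01 := sl2_sq z 0 1
    have e10 := sl2_sq z 1 0
    have e00 := sl2_sq z 0 0
    have e11 := sl2_sq z 1 1
    rw [h1] at e01
    rw [h2] at e10
    rw [h3] at e00
    simp at e01 e10 e00 e11
    refine ⟨?_, ?_, ?_⟩
    · exact e01.resolve_left hne
    · exact e10.resolve_left hne
    · exact sub_eq_zero.1 ((mul_eq_zero.1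
        (show tr z * (z 0 0 - z 1 1) = 0 by linear_combination e11 - e00)).resolve_left hne)
  have := conj_eq_self_iff.2 (show z ∈ cent g from isScal_mem_cent hs)
  rw [hz] at this
  exact inv_ne_self_of_ss ht this

theorem diag00 (t : Fˣ) : diagSL t 0 0 = (t : F) := rfl

theorem diag01 (t : Fˣ) : diagSL t 0 1 = (0 : F) := rfl

theorem diag10 (t : Fˣ) : diagSL t 1 0 = (0 : F) := rfl

theorem comp0_10 : H6.comp (0 : F) 1 0 = (1 : F) := rfl

theorem comp0_11 : H6.comp (0 : F) 1 1 = (0 : F) := rfl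

theorem diag11 (t : Fˣ) : diagSL t 1 1 = ((t⁻¹ : Fˣ) : F) := rfl

variable [Fintype F]

theorem ss_of_mem_cent {g z : SL(2, F)} (ht : tr g ^ 2 ≠ 4) (hz : z ∈ cent g) (hns : ¬ IsScal z) :
    tr z ^ 2 ≠ 4 :=
  isSS_π.1 (isSS_of_mem_mx (x := π g) (isSS_π.2 ht) (by rw [mx_π]; exact mem_tor.2 hz)
    fun e => hns (π_eq_one_iff_isScal.1 e))

/-- What a solubiliser pair looks like in `SL₂`. -/
theorem solv_cases {x y : SL(2, F)} (hx : ¬ IsScal x) (h : Solv (π x) (π y)) :
    (∃ c : SL(2, F), (c * x * c⁻¹) 1 0 = 0 ∧ (c * y * c⁻¹) 1 0 = 0) ∨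
      (∃ g : SL(2, F), tr g ^ 2 ≠ 4 ∧ x ∈ torNorm g ∧ y ∈ torNorm g) ∨
      ((2 : F) ≠ 0 ∧ ∃ V : Subgroup PSL(2, F), IsKleinFour V ∧
        π x ∈ Subgroup.normalizer (V : Set PSL(2, F)) ∧ π y ∈ Subgroup.normalizer (V : Set PSL(2, F))) := by
  have hS : Group.IsSolvable (Subgroup.closure ({π x, π y} : Set PSL(2, F))) := h
  have hxS : π x ∈ Subgroup.closure ({π x, π y} : Set PSL(2, F)) :=
    Subgroup.subset_closure (Set.mem_insert _ _)
  have hyS : π y ∈ Subgroup.closure ({π x, π y} : Set PSL(2, F)) :=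
    Subgroup.subset_closure (Set.mem_insert_of_mem _ rfl)
  have hne : Subgroup.closure ({π x, π y} : Set PSL(2, F)) ≠ ⊥ := fun e =>
    hx (π_eq_one_iff_isScal.1 (Subgroup.mem_bot.1 (e ▸ hxS)))
  rcases solvable_cases _ hne with ⟨c, hc⟩ | ⟨g, ht, hg⟩ | ⟨h2, V, hV, hle⟩
  · obtain ⟨d, rfl⟩ := π_surjective c
    refine Or.inl ⟨d, ?_, ?_⟩
    · have := hc _ hxS
      rwa [← map_inv, ← map_mul, ← map_mul, mem_borel] at this
    · have := hc _ hyS
      rwa [← map_inv, ← map_mul, ← map_mul, mem_borel] at this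
  · refine Or.inr (Or.inl ⟨g, ht, ?_, ?_⟩)
    · exact (mem_map_π (center_le_torNorm g)).1 (hg hxS)
    · exact (mem_map_π (center_le_torNorm g)).1 (hg hyS)
  · exact Or.inr (Or.inr ⟨h2, V, hV, hle hxS, hle hyS⟩)

theorem solv_of_upper {x y : SL(2, F)} (hx : x 1 0 = 0) (hy : y 1 0 = 0) : Solv (π x) (π y) :=
  solv_of_mem (borel F) (mem_borel.2 hx) (mem_borel.2 hy)

theorem solv_of_torNorm {g x y : SL(2, F)} (ht : tr g ^ 2 ≠ 4) (hx : x ∈ torNorm g)
    (hy : y ∈ torNorm g) : Solv (π x) (π y) :=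
  @solv_of_mem _ _ _ _ (torDih g) (isSolvable_torDih ht) (Subgroup.mem_map_of_mem _ hx)
    (Subgroup.mem_map_of_mem _ hy)

theorem solv_comm {G : Type*} [Group G] {x y : G} (h : Solv x y) : Solv y x := by
  unfold Solv at h ⊢
  rwa [Set.pair_comm]

theorem solv_of_conj {x y c : SL(2, F)} (h : Solv (π (c * x * c⁻¹)) (π (c * y * c⁻¹))) :
    Solv (π x) (π y) :=
  (solv_conj (MulAut.conj (π c)) (π x) (π y)).1 (by
    simpa [MulAut.conj_apply, map_mul, map_inv] using h)

/-- In a torus normaliser containing a semisimple element of non-zero trace. -/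
theorem mem_torNorm_self {g x y : SL(2, F)} (ht : tr g ^ 2 ≠ 4) (hx : x ∈ torNorm g)
    (hy : y ∈ torNorm g) (hns : ¬ IsScal x) (htr : tr x ≠ 0) : y ∈ torNorm x := by
  rcases (mem_torNorm ht).1 hx with e | e
  · have hc := conj_eq_self_iff.1 e
    rwa [torNorm, cent_eq_of_mem (not_isScal_of_ss ht) hc hns]
  · exact absurd (tr_eq_zero_of_inverts ht e) htr

/-- Order `≠ 1` or `2`, dividing `q - 1`: split semisimple. -/
theorem split_of_order {p : ℕ} [Fact p.Prime] [CharP F p] {g : SL(2, F)} (h1 : π g ≠ 1)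
    (h2 : orderOf (π g) ≠ 2) (hd : orderOf (π g) ∣ Fintype.card F - 1) :
    tr g ^ 2 ≠ 4 ∧ Split (tr g) := by
  obtain ⟨n, hp, hn⟩ := FiniteField.card F p
  have hq : 2 ≤ Fintype.card F := Fintype.one_lt_card
  have ht : tr g ^ 2 ≠ 4 := fun h => by
    rw [orderOf_eq_of_not_isSS p h1 fun hs => isSS_π.1 hs h] at hd
    have h3 : p ∣ Fintype.card F := hn ▸ dvd_pow_self p n.ne_zero
    have h4 := Nat.dvd_sub h3 hd
    rw [show Fintype.card F - (Fintype.card F - 1) = 1 by omega] at h4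
    exact hp.ne_one (Nat.dvd_one.1 h4)
  refine ⟨ht, ?_⟩
  rcases card_tor_ss rfl ht with ⟨hs, -⟩ | ⟨-, hc⟩
  · exact hs
  exfalso
  have h3 : orderOf (π g) ∣ Fintype.card F + 1 := by
    refine (Subgroup.orderOf_dvd_natCard _ (self_mem_tor g)).trans ?_
    rw [hc]
    have hg2 := Nat.gcd_dvd_right 2 (Fintype.card F - 1)
    have hdd : Nat.gcd 2 (Fintype.card F - 1) ∣ Fintype.card F + 1 := by
      rcases (Nat.dvd_prime Nat.prime_two).1 (Nat.gcd_dvd_left 2 (Fintype.card F - 1)) with e | e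
      · rw [e]; exact one_dvd _
      · rw [e] at hg2 ⊢; omega
    exact Nat.div_dvd_of_dvd hdd
  have h4 := Nat.dvd_sub h3 hd
  rw [show Fintype.card F + 1 - (Fintype.card F - 1) = 2 by omega] at h4
  rcases (Nat.dvd_prime Nat.prime_two).1 h4 with e | e
  · exact h1 (orderOf_eq_one_iff.1 e)
  · exact h2 e

/-- Order `≠ 1` or `2`, dividing `q + 1`: non-split semisimple. -/
theorem nonsplit_of_order {p : ℕ} [Fact p.Prime] [CharP F p] {g : SL(2, F)} (h1 : π g ≠ 1)
    (h2 : orderOf (π g) ≠ 2) (hd : orderOf (π g) ∣ Fintype.card F + 1) :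
    tr g ^ 2 ≠ 4 ∧ ¬ Split (tr g) := by
  obtain ⟨n, hp, hn⟩ := FiniteField.card F p
  have hq : 2 ≤ Fintype.card F := Fintype.one_lt_card
  have ht : tr g ^ 2 ≠ 4 := fun h => by
    rw [orderOf_eq_of_not_isSS p h1 fun hs => isSS_π.1 hs h] at hd
    have h3 : p ∣ Fintype.card F := hn ▸ dvd_pow_self p n.ne_zero
    exact hp.ne_one (Nat.dvd_one.1 ((Nat.dvd_add_right h3).1 hd))
  refine ⟨ht, fun hs => ?_⟩
  rcases card_tor_ss rfl ht with ⟨-, hc⟩ | ⟨hns, -⟩
  · have h3 : orderOf (π g) ∣ Fintype.card F - 1 := by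
      refine (Subgroup.orderOf_dvd_natCard _ (self_mem_tor g)).trans ?_
      rw [hc]
      exact Nat.div_dvd_of_dvd (Nat.gcd_dvd_right _ _)
    have h4 := Nat.dvd_sub hd h3
    rw [show Fintype.card F + 1 - (Fintype.card F - 1) = 2 by omega] at h4
    rcases (Nat.dvd_prime Nat.prime_two).1 h4 with e | e
    · exact h1 (orderOf_eq_one_iff.1 e)
    · exact h2 e
  · exact hns hs

/-! ### Counting -/

theorem card_upper : Nat.card {g : SL(2, F) // g 1 0 = 0} = Fintype.card F * (Fintype.card F - 1) := by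
  rw [← Nat.card_eq_fintype_card, ← Nat.card_units, ← Nat.card_prod]
  refine Nat.card_eq_of_bijective
    (fun g => (g.1 0 1, Units.mk0 (g.1 0 0) fun e => by simpa [e] using det_upper g.2)) ⟨?_, ?_⟩
  · rintro ⟨g, hg⟩ ⟨h, hh⟩ e
    simp only [Prod.mk.injEq, Units.ext_iff, Units.val_mk0] at e
    have d1 := det_upper hg
    have d2 := det_upper hh
    rw [e.2] at d1
    exact Subtype.ext (sl2_ext e.2 e.1 (hg.trans hh.symm)
      (mul_left_cancel₀ (left_ne_zero_of_mul_eq_one d2) (d1.trans d2.symm)))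
  · rintro ⟨b, a⟩
    refine ⟨⟨sl2 (a : F) b 0 ((a⁻¹ : Fˣ) : F) (by simp), rfl⟩, ?_⟩
    simp [sl2]

/-- Elements with non-zero lower entry, by lower entry and trace. -/
theorem card_lower (P : F → F → Prop) :
    Nat.card {g : SL(2, F) // g 1 0 ≠ 0 ∧ P (g 1 0) (tr g)} =
      Nat.card {z : F × F // z.1 ≠ 0 ∧ P z.1 z.2} * Fintype.card F := by
  rw [← Nat.card_eq_fintype_card, ← Nat.card_prod]
  refine Nat.card_eq_of_bijective
    (fun g => ((⟨(g.1 1 0, tr g.1), g.2⟩ : {z : F × F // z.1 ≠ 0 ∧ P z.1 z.2}), g.1 0 0)) ⟨?_, ?_⟩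
  · rintro ⟨g, hg⟩ ⟨h, hh⟩ e
    simp only [Prod.mk.injEq, Subtype.mk.injEq] at e
    obtain ⟨⟨e10, et⟩, e00⟩ := e
    have e11 : g 1 1 = h 1 1 := by
      simp only [tr] at et; linear_combination et - e00
    have d1 := sl2_det g
    have d2 := sl2_det h
    have e01 : g 0 1 = h 0 1 := mul_right_cancel₀ hh.1 (by
      rw [e00, e11, e10] at d1; linear_combination d2 - d1)
    exact Subtype.ext (sl2_ext e00 e01 e10 e11)
  · rintro ⟨⟨⟨c, s⟩, hc, hP⟩, a⟩
    refine ⟨⟨sl2 a ((a * (s - a) - 1) / c) c (s - a) (by rw [div_mul_cancel₀ _ hc]; ring),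
      by simpa [sl2] using hc, by simpa [sl2, tr] using hP⟩, ?_⟩
    simp [sl2, tr]

theorem solv_card_mul (x : PSL(2, F)) (P : SL(2, F) → Prop) (h : ∀ g, Solv x (π g) ↔ P g) :
    Nat.card {y : PSL(2, F) // Solv x y} * Nat.gcd 2 (Fintype.card F - 1) =
      Nat.card {g : SL(2, F) // P g} := by
  have hk : Nat.card (π : SL(2, F) →* PSL(2, F)).ker = Nat.gcd 2 (Fintype.card F - 1) := by
    rw [ker_π]; exact card_center_sl2 rfl
  rw [← hk, ← card_preimage π π_surjective (fun y => Solv x y)]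
  exact Nat.card_congr (Equiv.subtypeEquivRight h)

/-- Solubiliser of a non-split semisimple element of non-zero trace. -/
theorem card_solv_nonsplit {g : SL(2, F)} (ht : tr g ^ 2 ≠ 4) (hs : ¬ Split (tr g))
    (h0 : tr g ≠ 0)
    (hV : ∀ V : Subgroup PSL(2, F), (2 : F) ≠ 0 → IsKleinFour V →
      π g ∉ Subgroup.normalizer (V : Set PSL(2, F))) :
    Nat.card {y : PSL(2, F) // Solv (π g) y} * Nat.gcd 2 (Fintype.card F - 1) =
      2 * (Fintype.card F + 1) := by
  rw [solv_card_mul (π g) (fun y => y ∈ torNorm g) fun y => ?_]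
  · show Nat.card (torNorm g) = _
    rw [card_torNorm ht, card_cent_nonsplit ht hs]
  · constructor
    · intro h
      rcases solv_cases (not_isScal_of_ss ht) h with ⟨c, hc, -⟩ | ⟨g', ht', hx, hy⟩ |
        ⟨h2, V, hV', hx, -⟩
      · exact absurd (split_of_conj_upper hc) hs
      · exact mem_torNorm_self ht' hx hy (not_isScal_of_ss ht) h0
      · exact absurd hx (hV V h2 hV')
    · exact fun h => solv_of_torNorm ht (cent_le_torNorm g (self_mem_cent g)) h

/-- Criterion for the solubiliser of a diagonal element. -/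
theorem solv_diag_iff {t : Fˣ} (ht : tr (diagSL t) ^ 2 ≠ 4) (h0 : tr (diagSL t) ≠ 0)
    (hV : ∀ V : Subgroup PSL(2, F), (2 : F) ≠ 0 → IsKleinFour V →
      π (diagSL t) ∉ Subgroup.normalizer (V : Set PSL(2, F))) (y : SL(2, F)) :
    Solv (π (diagSL t)) (π y) ↔ y 1 0 = 0 ∨ y 0 1 = 0 ∨ (y 0 0 = 0 ∧ y 1 1 = 0) := by
  have htt : (t : F) - ((t⁻¹ : Fˣ) : F) ≠ 0 := fun e => inv_ne_self_of_ss ht (by
    rw [sub_eq_zero] at e
    apply sl2_ext <;> simp [diag00, diag01, diag10, diag11, sl2_inv_00, sl2_inv_01, sl2_inv_10, sl2_inv_11,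
      Units.val_inv_eq_inv_val] at e ⊢ <;> first | exact e | exact e.symm)
  constructor
  · intro h
    rcases solv_cases (not_isScal_of_ss ht) h with ⟨c, hx, hy⟩ | ⟨g, hg, hx, hy⟩ | ⟨h2, V, hV', hx, -⟩
    · rw [conj_entry] at hx hy
      have he : c 1 0 * c 1 1 * ((t : F) - ((t⁻¹ : Fˣ) : F)) = 0 := by
        simpa [diag00, diag01, diag10, diag11] using hx
      rcases mul_eq_zero.1 ((mul_eq_zero.1 he).resolve_right htt) with e | e
      · left
        have : c 1 1 ≠ 0 := fun e' => by simpa [e, e'] using sl2_det c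
        simpa [e, this] using hy
      · right; left
        have : c 1 0 ≠ 0 := fun e' => by simpa [e, e'] using sl2_det c
        simpa [e, this] using hy
    · rcases (mem_torNorm ht).1 (mem_torNorm_self hg hx hy (not_isScal_of_ss ht) h0) with e | e
      · left
        rw [mul_inv_eq_iff_eq_mul] at e
        have h10 := congrArg (fun z : SL(2, F) => z 1 0) e
        simp [sl2_mul, diag00, diag01, diag10, diag11] at h10
        exact (mul_eq_zero.1 (show ((t : F) - ((t⁻¹ : Fˣ) : F)) * y 1 0 = 0 by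
          simp only [Units.val_inv_eq_inv_val] at h10 ⊢; linear_combination h10)).resolve_left htt
      · right; right
        rw [mul_inv_eq_iff_eq_mul] at e
        have h00 := congrArg (fun z : SL(2, F) => z 0 0) e
        have h11 := congrArg (fun z : SL(2, F) => z 1 1) e
        simp [sl2_mul, diag00, diag01, diag10, diag11, sl2_inv_00, sl2_inv_01, sl2_inv_10, sl2_inv_11] at h00 h11
        constructor
        · exact (mul_eq_zero.1 (show ((t : F) - ((t⁻¹ : Fˣ) : F)) * y 0 0 = 0 by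
            simp only [Units.val_inv_eq_inv_val] at h00 ⊢; linear_combination h00)).resolve_left htt
        · exact (mul_eq_zero.1 (show ((t : F) - ((t⁻¹ : Fˣ) : F)) * y 1 1 = 0 by
            simp only [Units.val_inv_eq_inv_val] at h11 ⊢; linear_combination (-1 : F) * h11)).resolve_left htt
    · exact absurd hx (hV V h2 hV')
  · rintro (h | h | ⟨h00, h11⟩)
    · exact solv_of_upper (by simp [diag10]) h
    · refine solv_of_conj (c := comp 0) (solv_of_upper ?_ ?_) <;>
        (rw [conj_entry, comp0_10, comp0_11]; simp [diag00, diag01, diag10, diag11, h])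
    · refine solv_of_torNorm ht (cent_le_torNorm _ (self_mem_cent _)) ((mem_torNorm ht).2 (Or.inr ?_))
      rw [mul_inv_eq_iff_eq_mul]
      apply sl2_ext <;> simp [sl2_mul, diag00, diag01, diag10, diag11, sl2_inv_00, sl2_inv_01, sl2_inv_10, sl2_inv_11,
        h00, h11, mul_comm]

theorem card_diag_set :
    Nat.card {g : SL(2, F) // g 1 0 = 0 ∨ g 0 1 = 0 ∨ (g 0 0 = 0 ∧ g 1 1 = 0)} =
      2 * Fintype.card F * (Fintype.card F - 1) := by
  classical
  have hq : 2 ≤ Fintype.card F := Fintype.one_lt_card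
  have h1 : Nat.card {g : SL(2, F) // g 0 1 = 0 ∧ g 1 0 ≠ 0} =
      (Fintype.card F - 1) * (Fintype.card F - 1) := by
    rw [← Nat.card_eq_fintype_card, ← Nat.card_units, ← Nat.card_prod]
    refine Nat.card_eq_of_bijective (fun g => (Units.mk0 (g.1 0 0) fun e => by
      simpa [e, g.2.1] using sl2_det g.1, Units.mk0 (g.1 1 0) g.2.2)) ⟨?_, ?_⟩
    · rintro ⟨g, hg⟩ ⟨h, hh⟩ e
      simp only [Prod.mk.injEq, Units.ext_iff, Units.val_mk0] at e
      have d1 := sl2_det g
      have d2 := sl2_det h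
      rw [hg.1, zero_mul, sub_zero, e.1] at d1
      rw [hh.1, zero_mul, sub_zero] at d2
      exact Subtype.ext (sl2_ext e.1 (hg.1.trans hh.1.symm) e.2
        (mul_left_cancel₀ (left_ne_zero_of_mul_eq_one d2) (d1.trans d2.symm)))
    · rintro ⟨a, c⟩
      refine ⟨⟨sl2 (a : F) 0 (c : F) ((a⁻¹ : Fˣ) : F) (by simp), rfl, c.ne_zero⟩, ?_⟩
      simp [sl2]
  have h2 : Nat.card {g : SL(2, F) // g 0 0 = 0 ∧ g 1 1 = 0} = Fintype.card F - 1 := by
    rw [← Nat.card_eq_fintype_card, ← Nat.card_units]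
    refine Nat.card_eq_of_bijective (fun g => Units.mk0 (g.1 1 0) fun e => by
      simpa [e, g.2.1] using sl2_det g.1) ⟨?_, ?_⟩
    · rintro ⟨g, hg⟩ ⟨h, hh⟩ e
      simp only [Units.ext_iff, Units.val_mk0] at e
      have d1 := sl2_det g
      have d2 := sl2_det h
      rw [hg.1, zero_mul, e] at d1
      rw [hh.1, zero_mul] at d2
      have hh0 : h 1 0 ≠ 0 := fun e' => by simp [e'] at d2
      exact Subtype.ext (sl2_ext (hg.1.trans hh.1.symm)
        (mul_right_cancel₀ hh0 (by linear_combination d2 - d1)) e (hg.2.trans hh.2.symm))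
    · intro c
      exact ⟨⟨sl2 0 (-((c⁻¹ : Fˣ) : F)) (c : F) 0 (by simp), rfl, rfl⟩, by simp [sl2]⟩
  have hsplit : Nat.card {g : SL(2, F) // g 1 0 = 0 ∨ g 0 1 = 0 ∨ (g 0 0 = 0 ∧ g 1 1 = 0)} =
      Nat.card {g : SL(2, F) // g 1 0 = 0} + (Nat.card {g : SL(2, F) // g 0 1 = 0 ∧ g 1 0 ≠ 0} +
        Nat.card {g : SL(2, F) // g 0 0 = 0 ∧ g 1 1 = 0}) := by
    simp only [Nat.card_eq_fintype_card, Fintype.card_subtype]
    rw [← Finset.card_union_of_disjoint, ← Finset.card_union_of_disjoint, ← Finset.filter_or,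
      ← Finset.filter_or]
    · refine congrArg Finset.card (Finset.filter_congr fun g _ => ?_)
      by_cases h : g 1 0 = 0 <;> simp [h]
    · rw [← Finset.filter_or]
      refine Finset.disjoint_filter.2 fun g _ hg h => ?_
      rcases h with h | h
      · exact h.2 hg
      · simpa [hg, h.1] using sl2_det g
    · refine Finset.disjoint_filter.2 fun g _ hg h => ?_
      simpa [hg.1, h.1] using sl2_det g
  rw [hsplit, card_upper, h1, h2]
  obtain ⟨m, hm⟩ : ∃ m, Fintype.card F = m + 1 := ⟨_, (Nat.succ_pred_eq_of_pos Fintype.card_pos).symm⟩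
  rw [hm, Nat.add_sub_cancel]
  ring

/-- Solubiliser of a split semisimple element of non-zero trace. -/
theorem card_solv_split {g : SL(2, F)} (ht : tr g ^ 2 ≠ 4) (hs : Split (tr g)) (h0 : tr g ≠ 0)
    (hV : ∀ V : Subgroup PSL(2, F), (2 : F) ≠ 0 → IsKleinFour V →
      π g ∉ Subgroup.normalizer (V : Set PSL(2, F))) :
    Nat.card {y : PSL(2, F) // Solv (π g) y} * Nat.gcd 2 (Fintype.card F - 1) =
      2 * Fintype.card F * (Fintype.card F - 1) := by
  obtain ⟨x, hx⟩ := hs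
  obtain ⟨u, -, hu, hns⟩ := diag_ne ht hx
  obtain ⟨c, hc⟩ := isConj_iff.1
    (isConj_of_tr_eq hns (not_isScal_of_ss ht) (Or.inl (hu.symm ▸ ht)) hu)
  subst hc
  rw [map_mul, map_mul, map_inv, card_solv_conj, solv_card_mul _ _ (solv_diag_iff (hu.symm ▸ ht) ?_ ?_),
    card_diag_set]
  · rwa [← tr_conj c (diagSL u)]
  · intro V h2 hV' hmem
    let e := MulAut.conj (π c)
    refine hV (V.map e.toMonoidHom) h2
      (Cfsg.Agent.H29.isKleinFour_map _ (MulEquiv.injective e) hV') ?_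
    rw [← Subgroup.map_equiv_normalizer_eq, map_mul, map_mul, map_inv]
    exact Subgroup.mem_map_of_mem _ hmem

end Cfsg.Agent.H68.Solub
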