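import Cfsg.Agent.H68.SolubilizerSL

/-!
# Solubilisers in `PSL₂(3ⁿ)`, `n` odd
-/

set_option autoImplicit false

open Matrix MatrixGroups

namespace Cfsg.Agent.H68.Solub.Three

open Cfsg.Agent.H6

variable {F : Type*} [Field F]

theorem e00 (a : F) : up a 0 0 = (1 : F) := rfl
theorem e01 (a : F) : up a 0 1 = a := rfl
theorem e10 (a : F) : up a 1 0 = (0 : F) := rfl
theorem e11 (a : F) : up a 1 1 = (1 : F) := rfl

/-- The standard element of trace zero. -/
def w : SL(2, F) := H6.comp 0

theorem w00 : (w : SL(2, F)) 0 0 = (0 : F) := rfl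
theorem w01 : (w : SL(2, F)) 0 1 = (-1 : F) := rfl
theorem w10 : (w : SL(2, F)) 1 0 = (1 : F) := rfl
theorem w11 : (w : SL(2, F)) 1 1 = (0 : F) := rfl

theorem tr_w : tr (w : SL(2, F)) = 0 := tr_comp 0

theorem not_isScal_w : ¬ IsScal (w : SL(2, F)) := not_isScal_comp 0

theorem tr_w_mul (y : SL(2, F)) : tr (w * y) = y 0 1 - y 1 0 := by
  simp [tr, sl2_mul, w00, w01, w10, w11]
  ring

theorem mem_cent_w {y : SL(2, F)} : y ∈ cent w ↔ y 0 0 = y 1 1 ∧ y 0 1 + y 1 0 = 0 := by
  rw [mem_cent]
  constructor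
  · intro h
    have h00 := congrArg (fun z : SL(2, F) => z 0 0) h
    have h01 := congrArg (fun z : SL(2, F) => z 0 1) h
    simp [sl2_mul, w00, w01, w10, w11] at h00 h01
    exact ⟨h01.symm, by linear_combination (-1 : F) * h00⟩
  · rintro ⟨h1, h2⟩
    apply sl2_ext <;> simp [sl2_mul, w00, w01, w10, w11] <;>
      first
        | linear_combination h1
        | linear_combination (-1 : F) * h1
        | linear_combination h2
        | linear_combination (-1 : F) * h2

/-- The trace that detects when `x` and its conjugate generate a four-group. -/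
theorem tr_conj_w (y : SL(2, F)) :
    tr (w * (y * w * y⁻¹)) = -(y 0 0 ^ 2 + y 0 1 ^ 2 + y 1 0 ^ 2 + y 1 1 ^ 2) := by
  simp [tr, sl2_mul, sl2_inv_00, sl2_inv_01, sl2_inv_10, sl2_inv_11, w00, w01, w10, w11]
  ring

theorem tr_conj_up {z : SL(2, F)} (hz : tr z = 0) (a : F) :
    tr (z * (up a * z * (up a)⁻¹)) = -2 - a ^ 2 * z 1 0 ^ 2 := by
  have d := sl2_det z
  simp only [tr] at hz ⊢
  simp [sl2_mul, sl2_inv_00, sl2_inv_01, sl2_inv_10, sl2_inv_11, e00, e01, e10, e11]
  linear_combination (z 0 0 + z 1 1) * hz - 2 * d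

theorem solv_inv_left {G : Type*} [Group G] (x y : G) : Solv x⁻¹ y ↔ Solv x y := by
  have h : ∀ u : G, Subgroup.closure ({u⁻¹, y} : Set G) ≤ Subgroup.closure ({u, y} : Set G) := fun u => by
    rw [Subgroup.closure_le, Set.insert_subset_iff, Set.singleton_subset_iff]
    exact ⟨inv_mem (Subgroup.subset_closure (Set.mem_insert _ _)),
      Subgroup.subset_closure (Set.mem_insert_of_mem _ rfl)⟩
  have e : Subgroup.closure ({x⁻¹, y} : Set G) = Subgroup.closure ({x, y} : Set G) :=
    le_antisymm (h x) (by simpa using h x⁻¹)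
  rw [Solv, Solv, e]

/-! ### Four-groups -/

/-- An involution with prescribed lower entry `c` and diagonal entry `r`. -/
noncomputable def inv4 (c r : F) (hc : c ≠ 0) : SL(2, F) :=
  sl2 r (-(1 + r ^ 2) / c) c (-r) (by field_simp; ring)

theorem inv4_00 (c r : F) (hc : c ≠ 0) : inv4 c r hc 0 0 = r := rfl
theorem inv4_01 (c r : F) (hc : c ≠ 0) : inv4 c r hc 0 1 = -(1 + r ^ 2) / c := rfl
theorem inv4_10 (c r : F) (hc : c ≠ 0) : inv4 c r hc 1 0 = c := rfl
theorem inv4_11 (c r : F) (hc : c ≠ 0) : inv4 c r hc 1 1 = -r := rfl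

theorem eq_inv4 {z : SL(2, F)} (hz : tr z = 0) (hc : z 1 0 ≠ 0) : z = inv4 (z 1 0) (z 0 0) hc := by
  have d := sl2_det z
  simp only [tr] at hz
  refine sl2_ext (inv4_00 _ _ _).symm ?_ (inv4_10 _ _ _).symm ?_
  · rw [inv4_01, eq_div_iff hc]
    linear_combination z 0 0 * hz - d
  · rw [inv4_11]
    linear_combination hz

theorem inv4_conj (c r a : F) (hc : c ≠ 0) :
    up a * inv4 c r hc * (up a)⁻¹ = inv4 c (r + a * c) hc := by
  rw [mul_inv_eq_iff_eq_mul]
  apply sl2_ext <;> simp [sl2_mul, e00, e01, e10, e11, inv4_00, inv4_01, inv4_10, inv4_11] <;>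
    field_simp <;> ring

variable [CharP F 3]

theorem three_eq : (3 : F) = 0 := CharP.cast_eq_zero F 3

theorem two_ne : (2 : F) ≠ 0 := fun h =>
  one_ne_zero (α := F) (by linear_combination three_eq (F := F) - h)

theorem cube_roots {k : F} (h : k ^ 3 = k) : k = 0 ∨ k = 1 ∨ k = -1 := by
  rcases mul_eq_zero.1 (show k * (k * k - 1) = 0 by linear_combination h) with e | e
  · exact Or.inl e
  · exact Or.inr (mul_self_eq_one_iff.1 (sub_eq_zero.1 e))

theorem inv4_mul (c r : F) (hc : c ≠ 0) :
    inv4 c r hc * inv4 c (r + 1) hc = inv4 c (r + 2) hc := by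
  apply sl2_ext <;> simp [sl2_mul, inv4_00, inv4_01, inv4_10, inv4_11] <;> field_simp <;>
    first
      | ring1
      | linear_combination three_eq (F := F)
      | linear_combination (-1 : F) * three_eq (F := F)
      | linear_combination (r + 1) * three_eq (F := F)
      | linear_combination -(r + 1) * three_eq (F := F)
      | linear_combination (r + 2) * three_eq (F := F)
      | linear_combination -(r + 2) * three_eq (F := F)

theorem π_inv4_sq (c r : F) (hc : c ≠ 0) : π (inv4 c r hc) * π (inv4 c r hc) = 1 := by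
  rw [← map_mul, (sq_neg_one_iff two_ne).2 (by simp [tr, inv4_00, inv4_11]), π_eq_one_iff]
  exact Or.inr rfl

theorem π_inv4_mul {c r r' : F} (hc : c ≠ 0) (h : r' = r + 1 ∨ r' = r - 1) :
    π (inv4 c r hc) * π (inv4 c r' hc) = π (inv4 c (2 * r' - r) hc) := by
  rcases h with rfl | rfl
  · rw [← map_mul, inv4_mul, show 2 * (r + 1) - r = r + 2 by ring]
  · have h1 := inv4_mul c (r - 1) hc
    rw [sub_add_cancel] at h1
    have h2 : π (inv4 c r hc) * π (inv4 c (r - 1) hc) =
        (π (inv4 c (r - 1) hc) * π (inv4 c r hc))⁻¹ := by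
      rw [_root_.mul_inv_rev, inv_eq_of_mul_eq_one_right (π_inv4_sq c r hc),
        inv_eq_of_mul_eq_one_right (π_inv4_sq c (r - 1) hc)]
    rw [h2, ← map_mul, h1, inv_eq_of_mul_eq_one_right (π_inv4_sq c _ hc)]
    congr 2
    linear_combination three_eq (F := F)

/-- The four-group of the involutions `inv4 c (r + k)`, `k` in the prime field. -/
noncomputable def fourG (c r : F) (hc : c ≠ 0) : Subgroup PSL(2, F) where
  carrier := {y | y = 1 ∨ ∃ r', (r' - r) ^ 3 = r' - r ∧ y = π (inv4 c r' hc)}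
  one_mem' := Or.inl rfl
  mul_mem' := by
    rintro x y (rfl | ⟨a, ha, rfl⟩) (rfl | ⟨b, hb, rfl⟩)
    · exact Or.inl (one_mul _)
    · exact Or.inr ⟨b, hb, one_mul _⟩
    · exact Or.inr ⟨a, ha, mul_one _⟩
    · have hd : (b - a) ^ 3 = b - a := by
        linear_combination hb - ha + ((b - a) * (b - r) * (r - a)) * three_eq (F := F)
      rcases cube_roots hd with e | e | e
      · rw [sub_eq_zero] at e
        subst e
        exact Or.inl (π_inv4_sq c _ hc)
      all_goals
        refine Or.inr ⟨2 * b - a, ?_, π_inv4_mul hc ?_⟩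
        · linear_combination 8 * hb - ha + (2 * (b - r) - 2 * (b - r) * (a - r) * (2 * b - a - r)) *
            three_eq (F := F)
        · first
            | exact Or.inl (by linear_combination e)
            | exact Or.inr (by linear_combination e)
  inv_mem' := by
    rintro x (rfl | ⟨a, ha, rfl⟩)
    · exact Or.inl inv_one
    · exact Or.inr ⟨a, ha, inv_eq_of_mul_eq_one_right (π_inv4_sq c a hc)⟩

variable [Fintype F]

theorem isKleinFour_fourG (c r : F) (hc : c ≠ 0) : IsKleinFour (fourG c r hc) := by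
  classical
  have hinj : ∀ a b, π (inv4 c a hc) = π (inv4 c b hc) → a = b := fun a b h => by
    rcases π_eq_iff.1 h with e | e
    · simpa [inv4_00] using congrArg (fun z : SL(2, F) => z 0 0) e
    · exfalso
      have h10 := congrArg (fun z : SL(2, F) => z 1 0) e
      simp [inv4_10, sl2_neg] at h10
      exact two_ne ((mul_eq_zero.1 (show (2 : F) * c = 0 by linear_combination h10)).resolve_right hc)
  have hne : ∀ a, π (inv4 c a hc) ≠ 1 := fun a h => hc (by
    rcases π_eq_one_iff.1 h with e | e <;>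
      simpa [inv4_10, sl2_neg] using congrArg (fun z : SL(2, F) => z 1 0) e)
  have hset : (fourG c r hc : Set PSL(2, F)) =
      {1, π (inv4 c r hc), π (inv4 c (r + 1) hc), π (inv4 c (r - 1) hc)} := by
    ext y
    constructor
    · rintro (rfl | ⟨a, ha, rfl⟩)
      · simp
      · rcases cube_roots ha with e | e | e
        · rw [show a = r by linear_combination e]; simp
        · rw [show a = r + 1 by linear_combination e]; simp
        · rw [show a = r - 1 by linear_combination e]; simp
    · rintro (rfl | rfl | rfl | rfl)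
      · exact Or.inl rfl
      · exact Or.inr ⟨r, by ring, rfl⟩
      · exact Or.inr ⟨r + 1, by ring, rfl⟩
      · exact Or.inr ⟨r - 1, by ring, rfl⟩
  have h1 : (1 : F) ≠ 0 := one_ne_zero
  have ha : r ≠ r + 1 := fun e => h1 (by linear_combination (-1 : F) * e)
  have hb : r ≠ r - 1 := fun e => h1 (by linear_combination e)
  have hab : r + 1 ≠ r - 1 := fun e => two_ne (F := F) (by linear_combination e)
  refine ⟨?_, ?_⟩
  · rw [show Nat.card (fourG c r hc) = (fourG c r hc : Set PSL(2, F)).ncard from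
      Nat.card_coe_set_eq _, hset,
      Set.ncard_insert_of_notMem (by simp [(hne _).symm]),
      Set.ncard_insert_of_notMem (by
        simp only [Set.mem_insert_iff, Set.mem_singleton_iff, not_or]
        exact ⟨fun e => ha (hinj _ _ e), fun e => hb (hinj _ _ e)⟩),
      Set.ncard_pair fun e => hab (hinj _ _ e)]
  · have : Nontrivial (fourG c r hc) :=
      ⟨⟨⟨_, Or.inr ⟨r, by ring, rfl⟩⟩, 1, fun e => hne r (congrArg Subtype.val e)⟩⟩
    refine (Monoid.exponent_eq_prime_iff Nat.prime_two).2 fun x hx => orderOf_eq_prime ?_ hx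
    rw [sq]
    refine Subtype.ext ?_
    rcases x.2 with e | ⟨a, -, e⟩
    · exact absurd (Subtype.ext e) hx
    · show (x : PSL(2, F)) * x = 1
      rw [e, π_inv4_sq]

theorem up_mem_normalizer {c r a : F} (hc : c ≠ 0) (ha : (a * c) ^ 3 = a * c) :
    π (up a) ∈ Subgroup.normalizer (fourG c r hc : Set PSL(2, F)) := by
  have key : ∀ a : F, (a * c) ^ 3 = a * c → ∀ y ∈ fourG c r hc,
      π (up a) * y * (π (up a))⁻¹ ∈ fourG c r hc := by
    rintro a ha y (rfl | ⟨b, hb, rfl⟩)
    · simp
    · refine Or.inr ⟨b + a * c, ?_, by rw [← map_inv, ← map_mul, ← map_mul, inv4_conj]⟩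
      linear_combination hb + ha + ((b - r) * (a * c) * (b - r + a * c)) * three_eq (F := F)
  refine Subgroup.mem_normalizer_iff.2 fun y => ⟨key a ha y, fun h => ?_⟩
  have h1 := key (-a) (by linear_combination (-1 : F) * ha) _ h
  have e : π (up (-a)) = (π (up a))⁻¹ := eq_inv_of_mul_eq_one_left (by
    rw [← map_mul, ← up_add, neg_add_cancel, up_zero, map_one])
  rw [e] at h1
  simpa [mul_assoc] using h1

section Q

variable {q : ℕ} (hq : Fintype.card F = q) (h8 : q % 8 = 3)

include hq h8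

theorem solv_of_normalizer {V : Subgroup PSL(2, F)} (hV : IsKleinFour V) {x y : PSL(2, F)}
    (hx : x ∈ Subgroup.normalizer (V : Set PSL(2, F)))
    (hy : y ∈ Subgroup.normalizer (V : Set PSL(2, F))) : Solv x y := by
  have : Group.IsSolvable (Subgroup.normalizer (V : Set PSL(2, F))) := isSolvable_of_card_lt_sixty
    (by rw [card_normalizer_four_three two_ne hq (Or.inl h8) hV]; norm_num)
  exact solv_of_mem _ hx hy

theorem not_split_zero : ¬ Split (0 : F) := fun h => by
  have := (split_zero_iff hq two_ne).1 h; omega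

omit h8 in
theorem not_commute {x y : PSL(2, F)} (hx : orderOf x = 2) (hy : orderOf y = 3) :
    x * y ≠ y * x := fun hc => by
  have : Fact (Nat.Prime 3) := ⟨Nat.prime_three⟩
  have hy1 : y ≠ 1 := fun e => by rw [e, orderOf_one] at hy; omega
  have hx1 : x ≠ 1 := fun e => by rw [e, orderOf_one] at hx; omega
  have hns : ¬ IsSS y := fun hs => not_dvd_card_mx 3 hs
    (hy ▸ Subgroup.orderOf_dvd_natCard _ (self_mem_mx y))
  obtain ⟨c, hc'⟩ := exists_conj_Uinf hy1 hns
  have hxM := mem_of_commute_isUni ⟨c, hc'⟩ (self_mem_mx y) hy1 hc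
  have := orderOf_eq_of_not_isSS 3 hx1 (not_isSS_of_mem_isUni ⟨c, hc'⟩ hxM)
  omega

theorem mem_or_orderOf_three {V : Subgroup PSL(2, F)} (hV : IsKleinFour V) {x : PSL(2, F)}
    (hx : x ∈ Subgroup.normalizer (V : Set PSL(2, F))) : x ∈ V ∨ orderOf x = 3 := by
  have : Fact (Nat.Prime 2) := ⟨Nat.prime_two⟩
  have : Fact (Nat.Prime 3) := ⟨Nat.prime_three⟩
  have hi : (V.subgroupOf (Subgroup.normalizer (V : Set PSL(2, F)))).index = 3 := by
    have h := (V.subgroupOf (Subgroup.normalizer (V : Set PSL(2, F)))).card_mul_index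
    rw [Nat.card_congr (Subgroup.subgroupOfEquivOfLe Subgroup.le_normalizer).toEquiv, hV.card_four,
      card_normalizer_four_three two_ne hq (Or.inl h8) hV] at h
    omega
  have : (V.subgroupOf (Subgroup.normalizer (V : Set PSL(2, F)))).Normal :=
    Subgroup.normal_in_normalizer
  have h3 : x ^ 3 ∈ V := by
    have := Subgroup.pow_index_mem (V.subgroupOf (Subgroup.normalizer (V : Set PSL(2, F)))) ⟨x, hx⟩
    rwa [hi, Subgroup.mem_subgroupOf] at this
  by_cases hx1 : x = 1
  · exact Or.inl (hx1 ▸ one_mem V)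
  by_cases hx3 : x ^ 3 = 1
  · exact Or.inr (orderOf_eq_prime hx3 hx1)
  left
  have hw2 : orderOf (x ^ 3) = 2 := orderOf_eq_prime (H29.sq_eq_one_of_mem_kleinFour h3) hx3
  have h6 : (x ^ 2) ^ 3 = 1 := by
    rw [← pow_mul, show 2 * 3 = 3 * 2 from rfl, pow_mul]; exact H29.sq_eq_one_of_mem_kleinFour h3
  by_cases hx2 : x ^ 2 = 1
  · rwa [show (3 : ℕ) = 2 + 1 from rfl, pow_succ, hx2, one_mul] at h3
  · exact absurd (by rw [← pow_add, ← pow_add]) (not_commute hq hw2 (orderOf_eq_prime h6 hx2))

theorem mem_four_of_orderOf_two {V : Subgroup PSL(2, F)} (hV : IsKleinFour V) {x : PSL(2, F)}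
    (hx : x ∈ Subgroup.normalizer (V : Set PSL(2, F))) (h2 : orderOf x = 2) : x ∈ V :=
  (mem_or_orderOf_three hq h8 hV hx).resolve_right (by omega)

omit hq h8 in
theorem tr_of_mem_four {V : Subgroup PSL(2, F)} (hV : IsKleinFour V) {g : SL(2, F)} (hg : π g ∈ V)
    (hg1 : π g ≠ 1) : tr g = 0 := by
  have : Fact (Nat.Prime 2) := ⟨Nat.prime_two⟩
  exact (orderOf_π_eq_two_iff two_ne).1 (orderOf_eq_prime (H29.sq_eq_one_of_mem_kleinFour hg) hg1)

omit hq h8 in
theorem tr_sq_of_order_three {g : SL(2, F)} (h : orderOf (π g) = 3) : tr g ^ 2 = 1 := by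
  have : Fact (Nat.Prime 3) := ⟨Nat.prime_three⟩
  by_contra hne
  have ht : tr g ^ 2 ≠ 4 := fun e => hne (by linear_combination e + three_eq (F := F))
  exact not_dvd_card_mx 3 (isSS_π.2 ht) (h ▸ Subgroup.orderOf_dvd_natCard _ (self_mem_mx _))

/-- Moving an element of a four-group by an element of order three gives a trace zero product. -/
theorem tr_mul_conj_eq_zero {V : Subgroup PSL(2, F)} (hV : IsKleinFour V) {x y : SL(2, F)}
    (hx : π x ∈ V) (hx1 : π x ≠ 1) (hy : π y ∈ Subgroup.normalizer (V : Set PSL(2, F)))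
    (hy3 : orderOf (π y) = 3) : tr (x * (y * x * y⁻¹)) = 0 := by
  have : Fact (Nat.Prime 2) := ⟨Nat.prime_two⟩
  have h1 : π (y * x * y⁻¹) ∈ V := by
    rw [map_mul, map_mul, map_inv]
    exact (Subgroup.mem_normalizer_iff.1 hy _).1 hx
  refine tr_of_mem_four hV (by rw [map_mul]; exact mul_mem hx h1) fun e => ?_
  rw [map_mul] at e
  have hxx : π x * π x = 1 := by rw [← sq]; exact H29.sq_eq_one_of_mem_kleinFour hx
  have e' : π (y * x * y⁻¹) = π x := mul_left_cancel (e.trans hxx.symm)
  rw [map_mul, map_mul, map_inv, mul_inv_eq_iff_eq_mul] at e'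
  exact not_commute hq (orderOf_eq_prime (H29.sq_eq_one_of_mem_kleinFour hx) hx1) hy3 e'.symm

/-- Criterion for the solubiliser of `π w`. -/
theorem solv_w_iff (y : SL(2, F)) :
    Solv (π w) (π y) ↔ tr y = 0 ∨ tr (w * y) = 0 ∨ y ∈ cent w ∨
      (tr y ^ 2 = 1 ∧ tr (w * y) ^ 2 = 1) := by
  have hw4 : tr (w : SL(2, F)) ^ 2 ≠ 4 := ss_of_tr_zero two_ne tr_w
  have hw2 : orderOf (π (w : SL(2, F))) = 2 := (orderOf_π_eq_two_iff two_ne).2 tr_w
  have hwi : (w : SL(2, F))⁻¹ = -w := inv_eq_neg_of_tr_zero two_ne tr_w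
  have hww : (w : SL(2, F)) * w = -1 := (sq_neg_one_iff two_ne).2 tr_w
  have hns : ∀ k : F, k * k ≠ -1 := fun k hk =>
    not_split_zero hq h8 ⟨k, by linear_combination hk⟩
  constructor
  · intro h
    rcases solv_cases not_isScal_w h with ⟨c, hx, -⟩ | ⟨g, hg, hx, hy⟩ | ⟨-, V, hV, hx, hy⟩
    · have := split_of_conj_upper hx
      rw [tr_w] at this
      exact absurd this (not_split_zero hq h8)
    · rcases (mem_torNorm hg).1 hy with ey | ey
      · rcases (mem_torNorm hg).1 hx with ex | ex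
        · refine Or.inr (Or.inr (Or.inl ?_))
          rw [cent_eq_of_mem (not_isScal_of_ss hg) (conj_eq_self_iff.1 ex) not_isScal_w]
          exact conj_eq_self_iff.1 ey
        · refine Or.inr (Or.inl ((sq_neg_one_iff two_ne).1 ?_))
          have hinv := conj_inv_of_mem_cent hg ex (conj_eq_self_iff.1 ey)
          rw [hwi, mul_neg] at hinv
          rw [show w * y * (w * y) = (w * y * w) * y by group, neg_eq_iff_eq_neg.1 hinv, neg_mul,
            inv_mul_cancel]
      · exact Or.inl (tr_eq_zero_of_inverts hg ey)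
    · have hxV := mem_four_of_orderOf_two hq h8 hV hx hw2
      have hw1 : π (w : SL(2, F)) ≠ 1 := fun e => by rw [e, orderOf_one] at hw2; omega
      rcases mem_or_orderOf_three hq h8 hV hy with hyV | hy3
      · by_cases hy1 : π y = 1
        · exact Or.inr (Or.inr (Or.inl (isScal_mem_cent (π_eq_one_iff_isScal.1 hy1))))
        · exact Or.inl (tr_of_mem_four hV hyV hy1)
      · have hs := tr_sq_of_order_three hy3
        have h0 := tr_mul_conj_eq_zero hq h8 hV hxV hw1 hy hy3
        rw [tr_conj_w] at h0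
        have d := sl2_det y
        refine Or.inr (Or.inr (Or.inr ⟨hs, ?_⟩))
        rw [tr_w_mul]
        simp only [tr] at hs
        linear_combination (2 : F) * d - hs - h0 + three_eq (F := F) * 0
  · intro h
    have hscal : ∀ z : SL(2, F), tr z ^ 2 = 4 → z 0 1 = z 1 0 → IsScal z := fun z hz hb => by
      have d := sl2_det z
      simp only [tr] at hz
      rw [hb] at d
      by_cases hd : z 0 0 = z 1 1
      · refine ⟨?_, ?_, hd⟩
        · rw [hb]; exact mul_self_eq_zero.1 ((mul_eq_zero.1 (show (2 * 2 : F) * (z 1 0 * z 1 0) = 0 by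
            rw [hd] at hz d; linear_combination hz - 4 * d)).resolve_left
              (mul_ne_zero two_ne two_ne))
        · exact mul_self_eq_zero.1 ((mul_eq_zero.1 (show (2 * 2 : F) * (z 1 0 * z 1 0) = 0 by
            rw [hd] at hz d; linear_combination hz - 4 * d)).resolve_left
              (mul_ne_zero two_ne two_ne))
      · have hne : z 0 0 - z 1 1 ≠ 0 := sub_ne_zero.2 hd
        exfalso
        refine hns (2 * z 1 0 / (z 0 0 - z 1 1)) ?_
        field_simp
        linear_combination hz - 4 * d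
    rcases h with h | h | h | ⟨hs, hu⟩
    · by_cases hz : tr (w * y) ^ 2 = 4
      · have hsc : IsScal y ∨ π y = π w := by
          right
          have hys : IsScal (w * y) := by
            refine hscal _ hz ?_
            simp [sl2_mul, w00, w01, w10, w11]
            simp only [tr] at h
            linear_combination (-1 : F) * h
          rcases isScal_iff.1 hys with e | e
          · have hyw : y = w⁻¹ := eq_inv_of_mul_eq_one_right e
            rw [hyw, hwi, π_neg]
          · have hyw : y = w := mul_left_cancel (e.trans hww.symm)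
            rw [hyw]
        rcases hsc with hsc | hsc
        · exact solv_of_torNorm hw4 (cent_le_torNorm _ (self_mem_cent _))
            (cent_le_torNorm _ (isScal_mem_cent hsc))
        · rw [hsc]
          exact solv_of_torNorm hw4 (cent_le_torNorm _ (self_mem_cent _))
            (cent_le_torNorm _ (self_mem_cent _))
      · have hyi : y⁻¹ = -y := inv_eq_neg_of_tr_zero two_ne h
        have hxN : w ∈ torNorm (w * y) := (mem_torNorm hz).2 (Or.inr (by
          rw [_root_.mul_inv_rev, hyi, hwi, ← mul_assoc w w y, hww, neg_one_mul]))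
        refine solv_of_torNorm hz hxN ?_
        have : y = w⁻¹ * (w * y) := by group
        nth_rewrite 2 [this]
        exact mul_mem (inv_mem hxN) (cent_le_torNorm _ (self_mem_cent _))
    · by_cases hz : tr y ^ 2 = 4
      · exact solv_of_torNorm hw4 (cent_le_torNorm _ (self_mem_cent _)) (cent_le_torNorm _
          (isScal_mem_cent (hscal _ hz (sub_eq_zero.1 (by rwa [tr_w_mul] at h)))))
      · refine solv_of_torNorm hz ((mem_torNorm hz).2 (Or.inr ?_))
          (cent_le_torNorm _ (self_mem_cent _))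
        have h1 := (sq_neg_one_iff two_ne).2 h
        rw [hwi, mul_neg]
        refine eq_inv_of_mul_eq_one_left ?_
        rw [neg_mul, show w * y * w * y = w * y * (w * y) by group, h1, neg_neg]
    · exact solv_of_torNorm hw4 (cent_le_torNorm _ (self_mem_cent _)) (cent_le_torNorm _ h)
    · have hd := sl2_det y
      have h0 : tr (w * (y * w * y⁻¹)) = 0 := by
        rw [tr_conj_w]
        rw [tr_w_mul] at hu
        simp only [tr] at hs
        linear_combination (2 : F) * hd - hs - hu
      have hyns : ¬ IsScal y := fun ⟨h1, h2, _⟩ => one_ne_zero (α := F) (by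
        rw [tr_w_mul, h1, h2] at hu; linear_combination (-1 : F) * hu)
      obtain ⟨c, a, ha, e⟩ := exists_conj_up hyns (by linear_combination hs - three_eq (F := F))
      obtain ⟨z, hzdef⟩ : ∃ z, z = c * w * c⁻¹ := ⟨_, rfl⟩
      have hz : tr z = 0 := by rw [hzdef, tr_conj, tr_w]
      have hzc : a ^ 2 * z 1 0 ^ 2 = 1 := by
        have h1 : tr (z * ((c * y * c⁻¹) * z * (c * y * c⁻¹)⁻¹)) = 0 := by
          rw [hzdef, show c * w * c⁻¹ * (c * y * c⁻¹ * (c * w * c⁻¹) * (c * y * c⁻¹)⁻¹) =
            c * (w * (y * w * y⁻¹)) * c⁻¹ by group, tr_conj, h0]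
        rcases π_eq_iff.1 e with e' | e'
        · rw [e', tr_conj_up hz] at h1
          linear_combination (-1 : F) * h1 - three_eq (F := F)
        · have hn : (-up a) * z * (-up a)⁻¹ = up a * z * (up a)⁻¹ := by
            rw [mul_inv_eq_iff_eq_mul, mul_neg, neg_mul, inv_mul_cancel_right]
          rw [e', hn, tr_conj_up hz] at h1
          linear_combination (-1 : F) * h1 - three_eq (F := F)
      have hz0 : z 1 0 ≠ 0 := fun e' => one_ne_zero (α := F) (by
        rw [e'] at hzc; linear_combination (-1 : F) * hzc)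
      refine solv_of_conj (c := c) ?_
      rw [e, ← hzdef]
      nth_rewrite 1 [eq_inv4 hz hz0]
      exact solv_of_normalizer hq h8 (isKleinFour_fourG (z 1 0) (z 0 0) hz0)
        (Subgroup.le_normalizer (Or.inr ⟨z 0 0, by ring, rfl⟩))
        (up_mem_normalizer hz0 (by linear_combination (a * z 1 0) * hzc))

theorem orderOf_π_up {a : F} (ha : a ≠ 0) : orderOf (π (up a)) = 3 := by
  have : Fact (Nat.Prime 3) := ⟨Nat.prime_three⟩
  exact orderOf_eq_of_not_isSS 3 (fun e => ha (π_up_eq_one_iff.1 e)) (not_isSS_up a)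

/-- Criterion for the solubiliser of `π (up 1)`. -/
theorem solv_up_iff (y : SL(2, F)) :
    Solv (π (up 1)) (π y) ↔ y 1 0 = 0 ∨ (y 1 0 ^ 2 = 1 ∧ tr y ^ 3 = tr y) := by
  have hns : ¬ IsScal (up (1 : F)) := not_isScal_up (one_ne_zero' F)
  constructor
  · intro h
    rcases solv_cases hns h with ⟨c, hx, hy⟩ | ⟨g, hg, hx, -⟩ | ⟨-, V, hV, hx, hy⟩
    · left
      rw [conj_entry, e00, e01, e10, e11] at hx
      have he : c 1 0 = 0 := mul_self_eq_zero.1
        (show c 1 0 * c 1 0 = 0 by linear_combination (-1 : F) * hx)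
      have : c 1 1 ≠ 0 := fun e' => by simpa [he, e'] using sl2_det c
      rw [conj_entry, he] at hy
      simpa [this] using hy
    · exfalso
      rcases (mem_torNorm hg).1 hx with e | e
      · have := ss_of_mem_cent hg (conj_eq_self_iff.1 e) hns
        rw [tr_up] at this
        exact this (by norm_num)
      · have := tr_eq_zero_of_inverts hg e
        rw [tr_up] at this
        exact two_ne this
    · have h3 := orderOf_π_up hq h8 (one_ne_zero' F)
      set N := Subgroup.normalizer (V : Set PSL(2, F))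
      have hi : (V.subgroupOf N).index = 3 := by
        have h := (V.subgroupOf N).card_mul_index
        rw [Nat.card_congr (Subgroup.subgroupOfEquivOfLe Subgroup.le_normalizer).toEquiv,
          hV.card_four, card_normalizer_four_three two_ne hq (Or.inl h8) hV] at h
        omega
      have : (V.subgroupOf N).Normal := Subgroup.normal_in_normalizer
      have : Fact (Nat.Prime 3) := ⟨Nat.prime_three⟩
      have hxV : π (up (1 : F)) ∉ V := fun hm => by
        have h2 := orderOf_dvd_of_pow_eq_one (H29.sq_eq_one_of_mem_kleinFour hm)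
        rw [h3] at h2
        omega
      have hne : (QuotientGroup.mk ⟨π (up 1), hx⟩ : N ⧸ V.subgroupOf N) ≠ 1 := fun e =>
        hxV (by simpa [Subgroup.mem_subgroupOf] using (QuotientGroup.eq_one_iff _).1 e)
      obtain ⟨i, hi'⟩ := Subgroup.mem_zpowers_iff.1
        (mem_zpowers_of_prime_card (p := 3) (by rw [← Subgroup.index_eq_card, hi]) hne
          (g' := (QuotientGroup.mk ⟨π y, hy⟩ : N ⧸ V.subgroupOf N)))
      rw [← QuotientGroup.mk_zpow, QuotientGroup.eq, Subgroup.mem_subgroupOf] at hi'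
      have hpow : π (up (1 : F)) ^ i = π (up (i : F)) := by
        have := map_zpow (upHom (F := F)) (Multiplicative.ofAdd 1) i
        simpa [upHom, ← ofAdd_zsmul] using this.symm
      simp only [Subgroup.coe_mul, Subgroup.coe_inv, SubgroupClass.coe_zpow, hpow] at hi'
      rw [← map_inv, ← map_mul] at hi'
      set z := (up (i : F))⁻¹ * y
      have hy' : y = up (i : F) * z := (mul_inv_cancel_left _ _).symm
      have hk : (i : F) ^ 3 = i := by
        have : Fact (Nat.Prime 3) := ⟨Nat.prime_three⟩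
        have := map_intCast (frobenius F 3) i
        rwa [frobenius_def] at this
      by_cases hz1 : π z = 1
      · left
        rcases π_eq_one_iff.1 hz1 with e | e <;> rw [hy', e] <;>
          simp [sl2_mul, sl2_neg, e10, e11]
      · right
        have hz : tr z = 0 := tr_of_mem_four hV hi' hz1
        have h0 := tr_mul_conj_eq_zero hq h8 hV hi' hz1 hx h3
        rw [tr_conj_up hz] at h0
        have hc : z 1 0 ^ 2 = 1 := by linear_combination (-1 : F) * h0 - three_eq (F := F)
        have h10 : y 1 0 = z 1 0 := by rw [hy']; simp [sl2_mul, e10, e11]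
        have htr : tr y = (i : F) * z 1 0 := by
          rw [hy']
          simp only [tr] at hz ⊢
          simp [sl2_mul, e00, e01, e10, e11]
          linear_combination hz
        refine ⟨by rw [h10]; exact hc, ?_⟩
        rw [htr]
        linear_combination z 1 0 ^ 3 * hk + (i : F) * z 1 0 * hc
  · intro h
    by_cases h0 : y 1 0 = 0
    · exact solv_of_upper (e10 1) h0
    obtain ⟨hc, hs⟩ := h.resolve_left h0
    obtain ⟨k, hk⟩ : ∃ k, k = -(tr y) * y 1 0 := ⟨_, rfl⟩
    have hk3 : (k * y 1 0) ^ 3 = k * y 1 0 := by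
      have : k * y 1 0 = -tr y := by rw [hk]; linear_combination (-tr y) * hc
      rw [this]; linear_combination (-1 : F) * hs
    obtain ⟨z, hzdef⟩ : ∃ z, z = up k * y := ⟨_, rfl⟩
    have hz10 : z 1 0 = y 1 0 := by rw [hzdef]; simp [sl2_mul, e10, e11]
    have hz : tr z = 0 := by
      rw [hzdef]
      simp only [tr] at hk hc ⊢
      simp [sl2_mul, e00, e01, e10, e11]
      rw [hk]
      linear_combination (-(y 0 0 + y 1 1)) * hc
    have hz0 : z 1 0 ≠ 0 := by rwa [hz10]
    have hy : π y = π (up (-k)) * π z := by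
      rw [hzdef, ← map_mul, ← mul_assoc, ← up_add, neg_add_cancel, up_zero, one_mul]
    rw [hy]
    refine solv_of_normalizer hq h8 (isKleinFour_fourG (z 1 0) (z 0 0) hz0)
      (up_mem_normalizer hz0 (by rw [hz10, one_mul]; linear_combination y 1 0 * hc))
      (mul_mem (up_mem_normalizer hz0 (by rw [hz10]; linear_combination (-1 : F) * hk3))
        (Subgroup.le_normalizer ?_))
    exact Or.inr ⟨z 0 0, by ring, by rw [← eq_inv4 hz hz0]⟩

/-! ### Counting -/

theorem card_tr_zero : Nat.card {g : SL(2, F) // tr g = 0} = (q - 1) * q := by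
  classical
  have h1 : Nat.card {g : SL(2, F) // tr g = 0} =
      Nat.card {g : SL(2, F) // g 1 0 ≠ 0 ∧ tr g = 0} := by
    refine Nat.card_congr (Equiv.subtypeEquivRight fun g => ⟨fun h => ⟨fun h0 => ?_, h⟩, fun h => h.2⟩)
    have d := det_upper h0
    simp only [tr] at h
    exact not_split_zero hq h8 ⟨g 0 0, by linear_combination g 0 0 * h - d⟩
  rw [h1, card_lower (fun _ s => s = 0), hq, show q - 1 = Nat.card Fˣ by
    rw [Nat.card_units, Nat.card_eq_fintype_card, hq]]
  congr 1
  refine Nat.card_eq_of_bijective (fun z => Units.mk0 z.1.1 z.2.1) ⟨?_, ?_⟩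
  · rintro ⟨⟨c, s⟩, hc⟩ ⟨⟨c', s'⟩, hc'⟩ e
    simp only [Units.ext_iff, Units.val_mk0] at e
    subst e
    exact Subtype.ext (Prod.ext rfl (hc.2.trans hc'.2.symm))
  · exact fun c => ⟨⟨((c : F), 0), c.ne_zero, rfl⟩, Units.ext rfl⟩

theorem card_cent_w : Nat.card {g : SL(2, F) // g ∈ cent w} = q + 1 :=
  (card_cent_tr_zero hq two_ne tr_w).2 (by omega)

theorem card_circle : Nat.card {z : F × F // z.1 ^ 2 + z.2 ^ 2 = 1} = q + 1 := by
  rw [← card_cent_w hq h8]
  refine Nat.card_eq_of_bijective (fun z => ⟨sl2 z.1.1 z.1.2 (-z.1.2) z.1.1 (by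
    linear_combination z.2), mem_cent_w.2 ⟨rfl, by simp [sl2]⟩⟩) ⟨?_, ?_⟩
  · rintro ⟨⟨a, b⟩, hab⟩ ⟨⟨a', b'⟩, hab'⟩ e
    have e1 := congrArg (fun g : {g : SL(2, F) // g ∈ cent w} => g.1 0 0) e
    have e2 := congrArg (fun g : {g : SL(2, F) // g ∈ cent w} => g.1 0 1) e
    simp [sl2] at e1 e2
    simp [e1, e2]
  · rintro ⟨g, hg⟩
    obtain ⟨h1, h2⟩ := mem_cent_w.1 hg
    have d := sl2_det g
    refine ⟨⟨(g 0 0, g 0 1), ?_⟩, Subtype.ext (sl2_ext rfl rfl ?_ ?_)⟩
    · linear_combination d + g 0 0 * h1 + g 0 1 * h2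
    · show -(g 0 1) = g 1 0
      linear_combination (-1 : F) * h2
    · exact h1

theorem card_tr_zero_sym : Nat.card {g : SL(2, F) // tr g = 0 ∧ tr (w * g) = 0} = q + 1 := by
  rw [← card_circle hq h8]
  symm
  refine Nat.card_eq_of_bijective (fun z => ⟨sl2 (z.1.1 - z.1.2) (z.1.1 + z.1.2) (z.1.1 + z.1.2)
    (-(z.1.1 - z.1.2)) (by linear_combination -2 * z.2 - three_eq (F := F)), by simp [tr, sl2],
    by rw [tr_w_mul]; simp [sl2]⟩) ⟨?_, ?_⟩
  · rintro ⟨⟨a, b⟩, hab⟩ ⟨⟨a', b'⟩, hab'⟩ e
    have e1 := congrArg (fun g : {g : SL(2, F) // tr g = 0 ∧ tr (w * g) = 0} => g.1 0 0) e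
    have e2 := congrArg (fun g : {g : SL(2, F) // tr g = 0 ∧ tr (w * g) = 0} => g.1 0 1) e
    simp [sl2] at e1 e2
    have ha : a = a' := by linear_combination -e1 - e2 + (a - a') * three_eq (F := F)
    have hb : b = b' := by linear_combination e1 - e2 + (b - b') * three_eq (F := F)
    simp [ha, hb]
  · rintro ⟨g, hs, hu⟩
    have d := sl2_det g
    rw [tr_w_mul] at hu
    simp only [tr] at hs
    refine ⟨⟨(-(g 0 0 + g 0 1), g 0 0 - g 0 1), ?_⟩, Subtype.ext (sl2_ext ?_ ?_ ?_ ?_)⟩
    · linear_combination (2 * g 0 0) * hs + (2 * g 0 1) * hu - 2 * d - three_eq (F := F)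
    · show -(g 0 0 + g 0 1) - (g 0 0 - g 0 1) = g 0 0
      linear_combination (-g 0 0) * three_eq (F := F)
    · show -(g 0 0 + g 0 1) + (g 0 0 - g 0 1) = g 0 1
      linear_combination (-g 0 1) * three_eq (F := F)
    · show -(g 0 0 + g 0 1) + (g 0 0 - g 0 1) = g 1 0
      linear_combination (-g 0 1) * three_eq (F := F) + hu
    · show -(-(g 0 0 + g 0 1) - (g 0 0 - g 0 1)) = g 1 1
      linear_combination g 0 0 * three_eq (F := F) - hs

theorem card_three_set :
    Nat.card {g : SL(2, F) // tr g ^ 2 = 1 ∧ tr (w * g) ^ 2 = 1} = 4 * (q + 1) := by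
  classical
  have h2 : Nat.card {s : F // s ^ 2 = 1} = 2 := by
    rw [Nat.card_eq_fintype_card, Fintype.card_subtype, Finset.card_eq_two]
    refine ⟨1, -1, fun e => two_ne (F := F) (by linear_combination e), ?_⟩
    ext s
    simp
  rw [show 4 * (q + 1) = Nat.card {s : F // s ^ 2 = 1} * Nat.card {s : F // s ^ 2 = 1} *
    Nat.card {z : F × F // z.1 ^ 2 + z.2 ^ 2 = 1} by rw [h2, card_circle hq h8],
    ← Nat.card_prod, ← Nat.card_prod]
  symm
  refine Nat.card_eq_of_bijective (fun z => ⟨sl2 (-(z.1.1.1 + z.2.1.1)) (-(z.1.2.1 + z.2.1.2))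
    (-(z.2.1.2 - z.1.2.1)) (-(z.1.1.1 - z.2.1.1))
    (by linear_combination z.1.1.2 + z.1.2.2 - z.2.2), ?_, ?_⟩) ⟨?_, ?_⟩
  · simp [tr, sl2, -sq_eq_one_iff]
    linear_combination z.1.1.2 + z.1.1.1 ^ 2 * three_eq (F := F)
  · rw [tr_w_mul]
    simp [sl2, -sq_eq_one_iff]
    linear_combination z.1.2.2 + z.1.2.1 ^ 2 * three_eq (F := F)
  · rintro ⟨⟨⟨s, hs⟩, ⟨u, hu⟩⟩, ⟨⟨v, r⟩, hvr⟩⟩ ⟨⟨⟨s', hs'⟩, ⟨u', hu'⟩⟩, ⟨⟨v', r'⟩, hvr'⟩⟩ e
    have e1 := congrArg (fun g : {g : SL(2, F) // tr g ^ 2 = 1 ∧ tr (w * g) ^ 2 = 1} => g.1 0 0) e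
    have e2 := congrArg (fun g : {g : SL(2, F) // tr g ^ 2 = 1 ∧ tr (w * g) ^ 2 = 1} => g.1 0 1) e
    have e3 := congrArg (fun g : {g : SL(2, F) // tr g ^ 2 = 1 ∧ tr (w * g) ^ 2 = 1} => g.1 1 0) e
    have e4 := congrArg (fun g : {g : SL(2, F) // tr g ^ 2 = 1 ∧ tr (w * g) ^ 2 = 1} => g.1 1 1) e
    simp [sl2] at e1 e2 e3 e4
    have hS : s = s' := by linear_combination e1 + e4 + (s - s') * three_eq (F := F)
    have hV : v = v' := by linear_combination e1 - e4 + (v - v') * three_eq (F := F)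
    have hU : u = u' := by linear_combination e2 - e3 + (u - u') * three_eq (F := F)
    have hR : r = r' := by linear_combination e2 + e3 + (r - r') * three_eq (F := F)
    simp [hS, hV, hU, hR]
  · rintro ⟨g, hs, hu⟩
    have d := sl2_det g
    rw [tr_w_mul] at hu
    simp only [tr] at hs
    refine ⟨⟨⟨⟨g 0 0 + g 1 1, hs⟩, ⟨g 0 1 - g 1 0, hu⟩⟩,
      ⟨(g 0 0 - g 1 1, g 0 1 + g 1 0), ?_⟩⟩, Subtype.ext (sl2_ext ?_ ?_ ?_ ?_)⟩
    · linear_combination hs + hu - 4 * d - three_eq (F := F)
    · show -(g 0 0 + g 1 1 + (g 0 0 - g 1 1)) = g 0 0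
      linear_combination (-g 0 0) * three_eq (F := F)
    · show -(g 0 1 - g 1 0 + (g 0 1 + g 1 0)) = g 0 1
      linear_combination (-g 0 1) * three_eq (F := F)
    · show -(g 0 1 + g 1 0 - (g 0 1 - g 1 0)) = g 1 0
      linear_combination (-g 1 0) * three_eq (F := F)
    · show -(g 0 0 + g 1 1 - (g 0 0 - g 1 1)) = g 1 1
      linear_combination (-g 1 1) * three_eq (F := F)

theorem card_w_set :
    Nat.card {g : SL(2, F) // tr g = 0 ∨ tr (w * g) = 0 ∨ g ∈ cent w ∨
      (tr g ^ 2 = 1 ∧ tr (w * g) ^ 2 = 1)} = 2 * (q * (q + 1)) := by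
  classical
  set A := (Finset.univ : Finset SL(2, F)).filter fun g => tr g = 0
  set B := (Finset.univ : Finset SL(2, F)).filter fun g => tr (w * g) = 0
  set C := (Finset.univ : Finset SL(2, F)).filter fun g => g ∈ cent w
  set D := (Finset.univ : Finset SL(2, F)).filter fun g => tr g ^ 2 = 1 ∧ tr (w * g) ^ 2 = 1
  have hA : A.card = (q - 1) * q := by
    rw [← card_tr_zero hq h8, Nat.card_eq_fintype_card, Fintype.card_subtype]
  have hB : B.card = (q - 1) * q := by
    rw [← card_tr_zero hq h8, Nat.card_congr ((Equiv.mulLeft w).subtypeEquiv (q := fun g => tr g = 0)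
      (p := fun g : SL(2, F) => tr (w * g) = 0) fun _ => Iff.rfl).symm, Nat.card_eq_fintype_card,
      Fintype.card_subtype]
  have hAB : (A ∩ B).card = q + 1 := by
    rw [← card_tr_zero_sym hq h8, Nat.card_eq_fintype_card, Fintype.card_subtype, ← Finset.filter_and]
  have hC : C.card = q + 1 := by
    rw [← card_cent_w hq h8, Nat.card_eq_fintype_card, Fintype.card_subtype]
  have hD : D.card = 4 * (q + 1) := by
    rw [← card_three_set hq h8, Nat.card_eq_fintype_card, Fintype.card_subtype]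
  have hCAB : (C ∩ (A ∪ B)).card = 4 := by
    have he : C ∩ (A ∪ B) = {1, -1, w, -w} := by
      ext g
      simp only [A, B, C, Finset.mem_inter, Finset.mem_union, Finset.mem_filter, Finset.mem_univ,
        true_and, Finset.mem_insert, Finset.mem_singleton]
      constructor
      · rintro ⟨hc, h⟩
        obtain ⟨h1, h2⟩ := mem_cent_w.1 hc
        have d := sl2_det g
        rcases h with h | h
        · simp only [tr] at h
          have ha : g 0 0 = 0 := (mul_eq_zero.1 (show (2 : F) * g 0 0 = 0 by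
            linear_combination h + h1)).resolve_left two_ne
          have hd : g 1 1 = 0 := by rw [← h1, ha]
          rw [ha, hd] at d
          rcases mul_self_eq_one_iff.1 (show g 1 0 * g 1 0 = 1 by
            linear_combination d + g 1 0 * h2) with e | e
          · exact Or.inr (Or.inr (Or.inl (sl2_ext (by rw [ha, w00])
              (by rw [w01]; linear_combination h2 - e) (by rw [e, w10]) (by rw [hd, w11]))))
          · exact Or.inr (Or.inr (Or.inr (sl2_ext (by rw [sl2_neg, ha, w00, neg_zero])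
              (by rw [sl2_neg, w01]; linear_combination h2 - e) (by rw [sl2_neg, e, w10])
              (by rw [sl2_neg, hd, w11, neg_zero]))))
        · rw [tr_w_mul] at h
          have hb : g 0 1 = 0 := (mul_eq_zero.1 (show (2 : F) * g 0 1 = 0 by
            linear_combination h + h2)).resolve_left two_ne
          have hc' : g 1 0 = 0 := by linear_combination h2 - hb
          rcases mul_self_eq_one_iff.1 (show g 0 0 * g 0 0 = 1 by
            rw [hb, hc'] at d; linear_combination d + g 0 0 * h1) with e | e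
          · exact Or.inl (sl2_ext (by simp [e]) (by simp [hb]) (by simp [hc']) (by simp [← h1, e]))
          · exact Or.inr (Or.inl (sl2_ext (by simp [sl2_neg, e]) (by simp [sl2_neg, hb])
              (by simp [sl2_neg, hc']) (by simp [sl2_neg, ← h1, e])))
      · rintro (rfl | rfl | rfl | rfl)
        · exact ⟨one_mem _, Or.inr (by rw [mul_one, tr_w])⟩
        · exact ⟨neg_one_mem_cent _, Or.inr (by rw [mul_neg, mul_one, tr_neg, tr_w, neg_zero])⟩
        · exact ⟨self_mem_cent _, Or.inl tr_w⟩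
        · refine ⟨?_, Or.inl (by rw [tr_neg, tr_w, neg_zero])⟩
          rw [← neg_one_mul]; exact mul_mem (neg_one_mem_cent _) (self_mem_cent _)
    rw [he]
    have hw1 : ∀ z : SL(2, F), IsScal z → w ≠ z ∧ -w ≠ z := fun z hz => ⟨fun e => not_isScal_w (e ▸ hz),
      fun e => one_ne_zero (α := F) (by
        have := hz.2.1
        rw [← e, sl2_neg, w10] at this
        linear_combination (-1 : F) * this)⟩
    have h11 : (1 : SL(2, F)) ≠ -1 := fun e => two_ne (F := F) (by
      have := congrArg (fun z : SL(2, F) => z 0 0) e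
      simp [sl2_neg] at this
      linear_combination this)
    have hww : (w : SL(2, F)) ≠ -w := fun e => two_ne (F := F) (by
      have := congrArg (fun z : SL(2, F) => z 1 0) e
      simp [sl2_neg, w10] at this
      linear_combination this)
    obtain ⟨n1, m1⟩ := hw1 1 (isScal_iff.2 (Or.inl rfl))
    obtain ⟨n2, m2⟩ := hw1 (-1) (isScal_iff.2 (Or.inr rfl))
    rw [Finset.card_insert_of_notMem (by simp [h11, n1.symm, m1.symm]),
      Finset.card_insert_of_notMem (by simp [n2.symm, m2.symm]), Finset.card_pair hww]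
  have hDisj : Disjoint (A ∪ B ∪ C) D := by
    rw [Finset.disjoint_left]
    intro g hg hgD
    simp only [A, B, C, D, Finset.mem_union, Finset.mem_filter, Finset.mem_univ, true_and] at hg hgD
    obtain ⟨hs, hu⟩ := hgD
    rcases hg with (h | h) | h
    · rw [h] at hs; norm_num at hs
    · rw [h] at hu; norm_num at hu
    · obtain ⟨h1, h2⟩ := mem_cent_w.1 h
      have d := sl2_det g
      rw [tr_w_mul] at hu
      simp only [tr] at hs
      exact one_ne_zero (α := F) (by
        linear_combination 4 * d - hs - hu + (g 0 0 - g 1 1) * h1 + (g 0 1 + g 1 0) * h2 +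
          three_eq (F := F))
  have e : Nat.card {g : SL(2, F) // tr g = 0 ∨ tr (w * g) = 0 ∨ g ∈ cent w ∨
      (tr g ^ 2 = 1 ∧ tr (w * g) ^ 2 = 1)} = (A ∪ B ∪ C ∪ D).card := by
    rw [Nat.card_eq_fintype_card, Fintype.card_subtype]
    congr 1
    ext g
    simp [A, B, C, D, or_assoc]
  rw [e, Finset.card_union_of_disjoint hDisj, hD]
  have e1 := Finset.card_union_add_card_inter A B
  have e2 := Finset.card_union_add_card_inter (A ∪ B) C
  rw [Finset.inter_comm (A ∪ B) C, hCAB] at e2
  obtain ⟨m, rfl⟩ : ∃ m, q = m + 1 := ⟨q - 1, by omega⟩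
  rw [Nat.add_sub_cancel] at hA hB
  simp only [mul_add, add_mul, mul_one, one_mul] at hA hB e1 e2 ⊢
  omega

theorem card_up_set :
    Nat.card {g : SL(2, F) // g 1 0 = 0 ∨ (g 1 0 ^ 2 = 1 ∧ tr g ^ 3 = tr g)} = q * (q + 5) := by
  classical
  have h6 : Nat.card {z : F × F // z.1 ≠ 0 ∧ (z.1 ^ 2 = 1 ∧ z.2 ^ 3 = z.2)} = 6 := by
    rw [Nat.card_eq_fintype_card, Fintype.card_subtype]
    have he : ((Finset.univ : Finset (F × F)).filter fun z => z.1 ≠ 0 ∧ (z.1 ^ 2 = 1 ∧ z.2 ^ 3 = z.2)) =
        ({1, -1} : Finset F) ×ˢ ({0, 1, -1} : Finset F) := by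
      ext ⟨c, s⟩
      simp only [Finset.mem_filter, Finset.mem_univ, true_and, Finset.mem_product, Finset.mem_insert,
        Finset.mem_singleton]
      constructor
      · exact fun h => ⟨mul_self_eq_one_iff.1 (by linear_combination h.2.1), cube_roots h.2.2⟩
      · rintro ⟨hc | hc, hs | hs | hs⟩ <;> subst hc hs <;> norm_num
    have hne : (1 : F) ≠ -1 := fun e => two_ne (F := F) (by linear_combination e)
    rw [he, Finset.card_product, Finset.card_pair hne,
      Finset.card_insert_of_notMem (by simp), Finset.card_pair hne]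
  have hsplit : Nat.card {g : SL(2, F) // g 1 0 = 0 ∨ (g 1 0 ^ 2 = 1 ∧ tr g ^ 3 = tr g)} =
      Nat.card {g : SL(2, F) // g 1 0 = 0} +
        Nat.card {g : SL(2, F) // g 1 0 ≠ 0 ∧ (g 1 0 ^ 2 = 1 ∧ tr g ^ 3 = tr g)} := by
    simp only [Nat.card_eq_fintype_card, Fintype.card_subtype]
    rw [← Finset.card_union_of_disjoint (Finset.disjoint_filter.2 fun g _ hg h => h.1 hg),
      ← Finset.filter_or]
    refine congrArg Finset.card (Finset.filter_congr fun g _ => ?_)
    by_cases h : g 1 0 = 0 <;> simp [h]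
  rw [hsplit, card_upper, card_lower (fun c s => c ^ 2 = 1 ∧ s ^ 3 = s), h6, hq]
  obtain ⟨m, rfl⟩ : ∃ m, q = m + 1 := ⟨q - 1, by omega⟩
  rw [Nat.add_sub_cancel]
  ring

theorem card_solv_three (x : PSL(2, F)) :
    (orderOf x = 2 → Nat.card {y : PSL(2, F) // Solv x y} = q * (q + 1)) ∧
    (orderOf x = 3 → 2 * Nat.card {y : PSL(2, F) // Solv x y} = q * (q + 5)) ∧
    (x ≠ 1 → orderOf x ≠ 2 → orderOf x ∣ q - 1 →
      Nat.card {y : PSL(2, F) // Solv x y} = q * (q - 1)) ∧
    (x ≠ 1 → orderOf x ≠ 2 → orderOf x ∣ q + 1 →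
      Nat.card {y : PSL(2, F) // Solv x y} = q + 1) := by
  classical
  have : Fact (Nat.Prime 3) := ⟨Nat.prime_three⟩
  have hg2 : Nat.gcd 2 (Fintype.card F - 1) = 2 := Nat.gcd_eq_left (by omega)
  obtain ⟨n, -, hn⟩ := FiniteField.card F 3
  have h3q : 3 ∣ q := hq ▸ hn ▸ dvd_pow_self 3 n.ne_zero
  obtain ⟨g, rfl⟩ := π_surjective x
  have hnoV : ∀ {m : ℕ}, ¬ 3 ∣ m → orderOf (π g) ∣ m → π g ≠ 1 → orderOf (π g) ≠ 2 →
      ∀ V : Subgroup PSL(2, F), (2 : F) ≠ 0 → IsKleinFour V →
        π g ∉ Subgroup.normalizer (V : Set PSL(2, F)) := by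
    intro m hm hd h1 h2 V _ hV hmem
    have : Fact (Nat.Prime 2) := ⟨Nat.prime_two⟩
    rcases mem_or_orderOf_three hq h8 hV hmem with hv | h3
    · exact h2 (orderOf_eq_prime (H29.sq_eq_one_of_mem_kleinFour hv) h1)
    · exact hm (h3 ▸ hd)
  refine ⟨fun ho => ?_, fun ho => ?_, fun h1 h2 hd => ?_, fun h1 h2 hd => ?_⟩
  · obtain ⟨c, hc⟩ := isConj_iff.1
      (isConj_involutions two_ne ((orderOf_π_eq_two_iff two_ne).2 (tr_w (F := F))) ho)
    rw [← hc, card_solv_conj]
    have := solv_card_mul _ _ (solv_w_iff hq h8)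
    rw [hg2, card_w_set hq h8] at this
    omega
  · have hns : ¬ IsScal g := fun h => by
      rw [π_eq_one_iff_isScal.2 h, orderOf_one] at ho; omega
    obtain ⟨c, a, ha, e⟩ := exists_conj_up hns
      (by linear_combination tr_sq_of_order_three ho - three_eq (F := F))
    rw [← card_solv_conj (π g) (π c), ← map_inv, ← map_mul, ← map_mul, e]
    have hsq : IsSquare a ∨ IsSquare (-a) := by
      have hcard : Fintype.card F % 4 = 3 := by omega
      by_contra hcon
      push Not at hcon
      obtain ⟨h1, h2⟩ := hcon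
      have hr : ringChar F ≠ 2 := by rw [ringChar.eq F 3]; norm_num
      have e1 := (quadraticChar_neg_one_iff_not_isSquare (F := F)).2 h1
      have e2 := (quadraticChar_neg_one_iff_not_isSquare (F := F)).2 h2
      have e3 := (quadraticChar_neg_one_iff_not_isSquare (F := F)).2
        (fun hm => by
          have := FiniteField.isSquare_neg_one_iff.1 hm
          omega : ¬ IsSquare (-1 : F))
      have e4 := map_mul (quadraticChar F) (-1) a
      rw [neg_one_mul, e1, e2, e3] at e4
      norm_num at e4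
    have key : ∀ b : F, IsSquare b → b ≠ 0 →
        2 * Nat.card {y : PSL(2, F) // Solv (π (up b)) y} = q * (q + 5) := by
      rintro b ⟨t, rfl⟩ hb
      obtain ⟨u, hu⟩ : ∃ u : Fˣ, (u : F) = t :=
        ⟨Units.mk0 t (left_ne_zero_of_mul hb), rfl⟩
      subst hu
      have he : π (up ((u : F) * u)) = π (diagSL u) * π (up 1) * (π (diagSL u))⁻¹ := by
        rw [← map_inv, ← map_mul, ← map_mul]
        congr 1
        rw [eq_mul_inv_iff_mul_eq]
        apply sl2_ext <;> simp [sl2_mul, e00, e01, e10, e11, diag00, diag01, diag10, diag11,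
          Units.val_inv_eq_inv_val, mul_assoc]
      rw [he, card_solv_conj]
      have := solv_card_mul _ _ (solv_up_iff hq h8)
      rw [hg2, card_up_set hq h8] at this
      omega
    rcases hsq with h | h
    · exact key a h ha
    · have hinv : π (up (-a)) = (π (up a))⁻¹ := eq_inv_of_mul_eq_one_left (by
        rw [← map_mul, ← up_add, neg_add_cancel, up_zero, map_one])
      have := key (-a) h (neg_ne_zero.2 ha)
      rw [hinv] at this
      simpa only [solv_inv_left] using this
  · have hm : ¬ 3 ∣ q - 1 := by omega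
    obtain ⟨ht, hs⟩ := split_of_order (p := 3) h1 h2 (hq ▸ hd)
    have h0 : tr g ≠ 0 := fun e => h2 ((orderOf_π_eq_two_iff two_ne).2 e)
    have := card_solv_split ht hs h0 (hnoV hm hd h1 h2)
    rw [hg2, hq] at this
    rw [mul_assoc 2] at this
    omega
  · have hm : ¬ 3 ∣ q + 1 := by omega
    obtain ⟨ht, hs⟩ := nonsplit_of_order (p := 3) h1 h2 (hq ▸ hd)
    have h0 : tr g ≠ 0 := fun e => h2 ((orderOf_π_eq_two_iff two_ne).2 e)
    have := card_solv_nonsplit ht hs h0 (hnoV hm hd h1 h2)
    rw [hg2, hq] at this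
    omega

end Q

end Cfsg.Agent.H68.Solub.Three
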