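import Cfsg.Agent.H68.SolubilizerSL
import Cfsg.Agent.H6.Exist

/-!
# Solubilisers in `PSL₂(2ⁿ)`
-/

set_option autoImplicit false

open Matrix MatrixGroups

namespace Cfsg.Agent.H68.Solub

open Cfsg.Agent.H6

variable {F : Type*} [Field F]

theorem up00 (a : F) : up a 0 0 = (1 : F) := rfl
theorem up01 (a : F) : up a 0 1 = a := rfl
theorem up10 (a : F) : up a 1 0 = (0 : F) := rfl
theorem up11 (a : F) : up a 1 1 = (1 : F) := rfl

theorem tr_up_mul (y : SL(2, F)) : tr (up 1 * y) = y 1 0 + tr y := by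
  simp [tr, sl2_mul, up00, up01, up10, up11]
  ring

variable [Fintype F]

/-- Criterion for the solubiliser of an involution, in characteristic two. -/
theorem solv_up_two_iff (h2 : (2 : F) = 0) (y : SL(2, F)) :
    Solv (π (up 1)) (π y) ↔ y 1 0 = 0 ∨ tr y = 0 ∨ tr y = y 1 0 := by
  have hsq : up (1 : F) * up 1 = 1 := by
    rw [← up_add, show (1 : F) + 1 = 0 by rw [← h2]; norm_num, up_zero]
  constructor
  · intro h
    rcases solv_cases (not_isScal_up (one_ne_zero' F)) h with ⟨c, hx, hy⟩ | ⟨g, hg, hx, hy⟩ | ⟨h2', -⟩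
    · left
      rw [conj_entry, up00, up01, up10, up11] at hx
      have he : c 1 0 = 0 := mul_self_eq_zero.1
        (show c 1 0 * c 1 0 = 0 by linear_combination (-1 : F) * hx)
      have : c 1 1 ≠ 0 := fun e' => by simpa [he, e'] using sl2_det c
      rw [conj_entry, he] at hy
      simpa [this] using hy
    · have hxi : up 1 * g * (up 1)⁻¹ = g⁻¹ := ((mem_torNorm hg).1 hx).resolve_left fun e => by
        have := ss_of_mem_cent hg (conj_eq_self_iff.1 e) (not_isScal_up (one_ne_zero' F))
        rw [tr_up] at this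
        exact this (by norm_num)
      right
      rcases (mem_torNorm hg).1 hy with e | e
      · right
        have hinv := conj_inv_of_mem_cent hg hxi (conj_eq_self_iff.1 e)
        have hmul : (up 1 * y) * (up 1 * y) = 1 := by
          rw [inv_eq_of_mul_eq_one_right hsq] at hinv
          rw [show up 1 * y * (up 1 * y) = up 1 * y * up 1 * y by group, hinv, inv_mul_cancel]
        have := (mul_self_eq_one_iff_two h2).1 hmul
        rw [tr_up_mul] at this
        linear_combination this - y 1 0 * h2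
      · exact Or.inl (tr_eq_zero_of_inverts hg e)
    · exact absurd h2 h2'
  · intro h
    by_cases hc : y 1 0 = 0
    · exact solv_of_upper (up10 1) hc
    have h4 : ∀ z : SL(2, F), tr z ≠ 0 → tr z ^ 2 ≠ 4 := fun z hz e => hz
      (mul_self_eq_zero.1 (show tr z * tr z = 0 by linear_combination e + 2 * h2))
    rcases h.resolve_left hc with h | h
    · have hz : tr (up 1 * y) ≠ 0 := by rwa [tr_up_mul, h, add_zero]
      have hyy : y * y = 1 := (mul_self_eq_one_iff_two h2).2 h
      have hxN : up 1 ∈ torNorm (up 1 * y) := (mem_torNorm (h4 _ hz)).2 (Or.inr (by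
        rw [_root_.mul_inv_rev, inv_eq_of_mul_eq_one_right hyy, inv_eq_of_mul_eq_one_right hsq,
          ← mul_assoc (up 1) (up 1) y, hsq, one_mul]))
      refine solv_of_torNorm (h4 _ hz) hxN ?_
      have : y = up 1 * (up 1 * y) := by rw [← mul_assoc, hsq, one_mul]
      nth_rewrite 2 [this]
      exact mul_mem hxN (cent_le_torNorm _ (self_mem_cent _))
    · have hy : tr y ≠ 0 := h ▸ hc
      refine solv_of_torNorm (h4 _ hy) ((mem_torNorm (h4 _ hy)).2 (Or.inr ?_))
        (cent_le_torNorm _ (self_mem_cent _))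
      have hmul := (mul_self_eq_one_iff_two h2).2 (show tr (up 1 * y) = 0 by
        rw [tr_up_mul, h]; linear_combination y 1 0 * h2)
      rw [inv_eq_of_mul_eq_one_right hsq]
      exact eq_inv_of_mul_eq_one_left (by
        rw [show up 1 * y * up 1 * y = up 1 * y * (up 1 * y) by group]; exact hmul)

theorem card_up_two_set :
    Nat.card {g : SL(2, F) // g 1 0 = 0 ∨ tr g = 0 ∨ tr g = g 1 0} =
      3 * Fintype.card F * (Fintype.card F - 1) := by
  classical
  have h : ∀ f : F → F, Nat.card {g : SL(2, F) // g 1 0 ≠ 0 ∧ tr g = f (g 1 0)} =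
      (Fintype.card F - 1) * Fintype.card F := fun f => by
    rw [card_lower (fun c s => s = f c), ← Nat.card_eq_fintype_card, ← Nat.card_units]
    congr 1
    refine Nat.card_eq_of_bijective (fun z => Units.mk0 z.1.1 z.2.1) ⟨?_, ?_⟩
    · rintro ⟨⟨c, s⟩, hc⟩ ⟨⟨c', s'⟩, hc'⟩ e
      simp only [Units.ext_iff, Units.val_mk0] at e
      subst e
      exact Subtype.ext (Prod.ext rfl (hc.2.trans hc'.2.symm))
    · exact fun c => ⟨⟨((c : F), f c), c.ne_zero, rfl⟩, Units.ext rfl⟩
  have hsplit : Nat.card {g : SL(2, F) // g 1 0 = 0 ∨ tr g = 0 ∨ tr g = g 1 0} =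
      Nat.card {g : SL(2, F) // g 1 0 = 0} + (Nat.card {g : SL(2, F) // g 1 0 ≠ 0 ∧ tr g = 0} +
        Nat.card {g : SL(2, F) // g 1 0 ≠ 0 ∧ tr g = g 1 0}) := by
    simp only [Nat.card_eq_fintype_card, Fintype.card_subtype]
    rw [← Finset.card_union_of_disjoint, ← Finset.card_union_of_disjoint, ← Finset.filter_or,
      ← Finset.filter_or]
    · refine congrArg Finset.card (Finset.filter_congr fun g _ => ?_)
      by_cases h : g 1 0 = 0 <;> simp [h]
    · rw [← Finset.filter_or]
      refine Finset.disjoint_filter.2 fun g _ hg h => ?_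
      rcases h with h | h <;> exact h.1 hg
    · exact Finset.disjoint_filter.2 fun g _ hg h => hg.1 (h.2.symm.trans hg.2)
  rw [hsplit, card_upper, h (fun _ => 0), h (fun c => c)]
  ring

theorem card_solv_two (h2 : (2 : F) = 0) (x : PSL(2, F)) :
    (orderOf x = 2 → Nat.card {y : PSL(2, F) // Solv x y} =
      3 * Fintype.card F * (Fintype.card F - 1)) ∧
    (x ≠ 1 → orderOf x ∣ Fintype.card F - 1 → Nat.card {y : PSL(2, F) // Solv x y} =
      2 * Fintype.card F * (Fintype.card F - 1)) ∧
    (x ≠ 1 → orderOf x ∣ Fintype.card F + 1 → Nat.card {y : PSL(2, F) // Solv x y} =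
      2 * (Fintype.card F + 1)) := by
  have : CharP F 2 := CharP.ringChar_of_prime_eq_zero Nat.prime_two (by exact_mod_cast h2) ▸ ringChar.charP F
  have : Fact (Nat.Prime 2) := ⟨Nat.prime_two⟩
  obtain ⟨n, -, hn⟩ := FiniteField.card F 2
  have heven : 2 ∣ Fintype.card F := hn ▸ dvd_pow_self 2 n.ne_zero
  have hq : 2 ≤ Fintype.card F := Fintype.one_lt_card
  have hd : Nat.gcd 2 (Fintype.card F - 1) = 1 := by
    have hodd : ¬ 2 ∣ Fintype.card F - 1 := by omega
    exact (Nat.prime_two.coprime_iff_not_dvd).2 hodd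
  have hnot2 : ∀ g : SL(2, F), tr g ≠ 0 → orderOf (π g) ≠ 2 := fun g hg h => hg (by
    have := pow_orderOf_eq_one (π g)
    rw [h, sq, ← map_mul, π_eq_one_iff, neg_one_eq_one_of_two h2, or_self] at this
    exact (mul_self_eq_one_iff_two h2).1 this)
  have h2o : ∀ g : SL(2, F), tr g = 0 → π g ≠ 1 → orderOf (π g) = 2 := fun g hg hg1 =>
    orderOf_eq_prime (by rw [sq, ← map_mul, (mul_self_eq_one_iff_two h2).2 hg, map_one]) hg1
  obtain ⟨g, rfl⟩ := π_surjective x
  refine ⟨fun ho => ?_, fun h1 hdv => ?_, fun h1 hdv => ?_⟩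
  · have hg : tr g = 0 := by
      by_contra hne
      exact hnot2 g hne ho
    have hns : ¬ IsScal g := fun h => by
      rw [π_eq_one_iff_isScal.2 h, orderOf_one] at ho
      omega
    obtain ⟨c, hc⟩ := isConj_iff.1 (isConj_of_tr_eq (not_isScal_up (one_ne_zero' F)) hns (Or.inr h2)
      (by rw [tr_up, hg, h2]))
    rw [← hc, map_mul, map_mul, map_inv, card_solv_conj]
    have := solv_card_mul _ _ (solv_up_two_iff h2)
    rwa [hd, mul_one, card_up_two_set] at this
  · have ho : orderOf (π g) ≠ 2 := fun e => by rw [e] at hdv; omega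
    obtain ⟨ht, hs⟩ := split_of_order (p := 2) h1 ho hdv
    have h0 : tr g ≠ 0 := fun e => ho (h2o g e h1)
    have := card_solv_split ht hs h0 fun V h2' => absurd h2 h2'
    rwa [hd, mul_one] at this
  · have ho : orderOf (π g) ≠ 2 := fun e => by rw [e] at hdv; omega
    obtain ⟨ht, hs⟩ := nonsplit_of_order (p := 2) h1 ho hdv
    have h0 : tr g ≠ 0 := fun e => ho (h2o g e h1)
    have := card_solv_nonsplit ht hs h0 fun V h2' => absurd h2 h2'
    rwa [hd, mul_one] at this

end Cfsg.Agent.H68.Solub
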